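import Mathlib

/-!
# Centralizers of linear type (helper446)

* `card_comm` : the number of automorphisms commuting with `T`, `minpoly F T` irreducible: `|GL_m(|F|^d)|`.
* `card_isometry` : `w` an isometry of a nondegenerate sesquilinear form, `V = W₁ ⊕ W₂` with `W₁`, `W₂` totally
  isotropic, `w`-invariant and preserved by all isometries commuting with `w`: the isometries commuting with `w` are
  the automorphisms of `W₁` commuting with `w`.
-/

set_option autoImplicit false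

namespace Cfsg.Agent.H446.CS

open Module Polynomial

universe u v

section comm

variable {F : Type u} [Field F] {V : Type v} [AddCommGroup V] [Module F V]

/-- The number of linear automorphisms. -/
theorem card_linearEquiv (E : Type u) [Field E] [Finite E] (V : Type v) [AddCommGroup V] [Module E V]
    [FiniteDimensional E V] :
    Nat.card (V ≃ₗ[E] V) = ∏ i ∈ Finset.range (finrank E V), (Nat.card E ^ finrank E V - Nat.card E ^ i) := by
  classical
  have := Fintype.ofFinite E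
  let b := Module.finBasis E V
  let e1 : (V ≃ₗ[E] V) ≃* LinearMap.GeneralLinearGroup E V :=
    (LinearMap.GeneralLinearGroup.generalLinearEquiv E V).symm
  let e2 : LinearMap.GeneralLinearGroup E V ≃* GL (Fin (finrank E V)) E :=
    Units.mapEquiv (LinearMap.toMatrixAlgEquiv b).toMulEquiv
  rw [Nat.card_congr (e1.trans e2).toEquiv, Matrix.card_GL_field, Nat.card_eq_fintype_card,
    Finset.prod_range]

theorem aeval_comm_apply {T g : Module.End F V} (h : ∀ v, g (T v) = T (g v)) (P : F[X]) (v : V) :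
    g (aeval T P v) = aeval T P (g v) := by
  have h1 : Commute g T := LinearMap.ext h
  have h2 : Commute g (aeval T P) := by
    induction P using Polynomial.induction_on' with
    | add p q hp hq => rw [map_add]; exact hp.add_right hq
    | monomial n a =>
      rw [aeval_monomial]
      exact (Algebra.commute_algebraMap_right a g).mul_right (h1.pow_right n)
  exact LinearMap.congr_fun h2 v

/-- **The automorphisms commuting with `T`, `minpoly F T` irreducible.** -/
theorem card_comm [Finite F] [FiniteDimensional F V] (T : Module.End F V) (hT : Irreducible (minpoly F T)) :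
    ∃ m : ℕ, finrank F V = (minpoly F T).natDegree * m ∧
      Nat.card {g : V ≃ₗ[F] V // ∀ v, g (T v) = T (g v)} =
        ∏ i ∈ Finset.range m, ((Nat.card F ^ (minpoly F T).natDegree) ^ m -
          (Nat.card F ^ (minpoly F T).natDegree) ^ i) := by
  classical
  set p := minpoly F T with hp
  have : Fact (Irreducible p) := ⟨hT⟩
  have hp0 : p ≠ 0 := hT.ne_zero
  let φ : AdjoinRoot p →+* Module.End F V :=
    Ideal.Quotient.lift (Ideal.span {p}) (aeval T : F[X] →ₐ[F] Module.End F V).toRingHom (by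
      intro a ha
      obtain ⟨c, rfl⟩ := Ideal.mem_span_singleton.1 ha
      show aeval T (p * c) = 0
      rw [map_mul, hp, minpoly.aeval, zero_mul])
  have hφ : ∀ P : F[X], φ (AdjoinRoot.mk p P) = aeval T P := fun P => rfl
  let _ : Module (AdjoinRoot p) V := Module.compHom V φ
  have hsm : ∀ (k : AdjoinRoot p) (v : V), k • v = φ k v := fun _ _ => rfl
  have : IsScalarTower F (AdjoinRoot p) V := ⟨fun c k v => by
    obtain ⟨P, rfl⟩ := AdjoinRoot.mk_surjective k
    have h1 : c • AdjoinRoot.mk p P = AdjoinRoot.mk p (c • P) := rfl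
    rw [h1, hsm, hsm, hφ, hφ, map_smul, LinearMap.smul_apply]⟩
  have hfE : finrank F (AdjoinRoot p) = p.natDegree := by
    rw [(AdjoinRoot.powerBasis hp0).finrank, AdjoinRoot.powerBasis_dim]
  have hfd : FiniteDimensional F (AdjoinRoot p) := (AdjoinRoot.powerBasis hp0).finite
  have hfinE : Finite (AdjoinRoot p) := Module.finite_of_finite F
  have hfdV : FiniteDimensional (AdjoinRoot p) V := Module.Finite.of_restrictScalars_finite F _ _
  have hcE : Nat.card (AdjoinRoot p) = Nat.card F ^ p.natDegree := by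
    rw [← hfE]
    exact Module.natCard_eq_pow_finrank
  refine ⟨finrank (AdjoinRoot p) V, ?_, ?_⟩
  · rw [← hfE, Module.finrank_mul_finrank]
  · rw [← hcE, ← card_linearEquiv]
    refine (Nat.card_congr ?_).symm
    refine
      { toFun := fun g => ⟨g.restrictScalars F, fun v => ?_⟩
        invFun := fun g =>
          { g.1 with
            map_smul' := fun k v => ?_ }
        left_inv := fun g => ?_
        right_inv := fun g => ?_ }
    · have h1 : ∀ v : V, T v = (AdjoinRoot.mk p X) • v := fun v => by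
        rw [hsm, hφ, aeval_X]
      show g (T v) = T (g v)
      rw [h1, h1, map_smul]
    · obtain ⟨P, rfl⟩ := AdjoinRoot.mk_surjective k
      show g.1 (AdjoinRoot.mk p P • v) = AdjoinRoot.mk p P • g.1 v
      rw [hsm, hsm, hφ]
      exact aeval_comm_apply (g := (g.1 : V →ₗ[F] V)) g.2 P v
    · exact LinearEquiv.ext fun v => rfl
    · exact Subtype.ext (LinearEquiv.ext fun v => rfl)

end comm

section isotropic

variable {F : Type u} [Field F] [Finite F] {V : Type v} [AddCommGroup V] [Module F V] [FiniteDimensional F V]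
  {σ : F →+* F}

/-- `W₁`, `W₂` are complementary, totally isotropic, `B` is nondegenerate (and symmetric, alternating or
hermitian). -/
structure Hyp (B : V →ₛₗ[σ] V →ₗ[F] F) (W₁ W₂ : Submodule F V) : Prop where
  sym : ∃ ε : F, ∀ u v, B v u = ε * σ (B u v)
  nd : ∀ v, (∀ u, B u v = 0) → v = 0
  nd' : ∀ u, (∀ v, B u v = 0) → u = 0
  compl : IsCompl W₁ W₂
  iso₁ : ∀ u ∈ W₁, ∀ v ∈ W₁, B u v = 0
  iso₂ : ∀ u ∈ W₂, ∀ v ∈ W₂, B u v = 0

variable {B : V →ₛₗ[σ] V →ₗ[F] F} {W₁ W₂ : Submodule F V}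

/-- the functional on `W₁` given by `v` -/
def Hyp.fn (B : V →ₛₗ[σ] V →ₗ[F] F) (W₁ W₂ : Submodule F V) (v : W₂) : W₁ →ₛₗ[σ] F :=
  (B.flip (v : V)).comp W₁.subtype

omit [Finite F] [FiniteDimensional F V] in
theorem Hyp.fn_apply (v : W₂) (u : W₁) : Hyp.fn B W₁ W₂ v u = B u v := rfl

omit [Finite F] [FiniteDimensional F V] in
theorem Hyp.exists_add (h : Hyp B W₁ W₂) (x : V) : ∃ u ∈ W₁, ∃ v ∈ W₂, u + v = x :=
  Submodule.mem_sup.1 (h.compl.sup_eq_top ▸ Submodule.mem_top)

omit [Finite F] [FiniteDimensional F V] in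
theorem Hyp.eq_zero₂ (h : Hyp B W₁ W₂) {v : V} (hv : v ∈ W₂) (h0 : ∀ u ∈ W₁, B u v = 0) : v = 0 := by
  apply h.nd
  intro x
  obtain ⟨u, hu, u', hu', rfl⟩ := h.exists_add x
  rw [map_add, LinearMap.add_apply, h0 u hu, h.iso₂ u' hu' v hv, add_zero]

omit [Finite F] [FiniteDimensional F V] in
theorem Hyp.eq_zero₁ (h : Hyp B W₁ W₂) {u : V} (hu : u ∈ W₁) (h0 : ∀ v ∈ W₂, B u v = 0) : u = 0 := by
  apply h.nd'
  intro x
  obtain ⟨v, hv, v', hv', rfl⟩ := h.exists_add x
  rw [map_add, h0 v' hv', h.iso₁ u hu v hv, add_zero]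

omit [Finite F] in
theorem card_submodule (W : Submodule F V) : Nat.card W = Nat.card F ^ finrank F W :=
  Module.natCard_eq_pow_finrank

theorem Hyp.card_fn_le (W : Submodule F V) :
    Finite (W →ₛₗ[σ] F) ∧ Nat.card (W →ₛₗ[σ] F) ≤ Nat.card W := by
  let b := Module.finBasis F W
  have hinj : Function.Injective (fun (f : W →ₛₗ[σ] F) (i : Fin (finrank F W)) => f (b i)) := by
    intro f g hfg
    refine b.ext fun i => ?_
    exact congrFun hfg i
  refine ⟨Finite.of_injective _ hinj, ?_⟩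
  have h1 := Nat.card_le_card_of_injective _ hinj
  rwa [Nat.card_fun, Nat.card_eq_fintype_card (α := Fin _), Fintype.card_fin, ← card_submodule] at h1

theorem Hyp.fn_bijective (h : Hyp B W₁ W₂) :
    Function.Bijective (Hyp.fn B W₁ W₂) ∧ Nat.card W₁ = Nat.card W₂ := by
  have hfV : Finite V := Module.finite_of_finite F
  have hinj : Function.Injective (Hyp.fn B W₁ W₂) := by
    intro v v' hvv
    have h1 : (v : V) - v' = 0 := by
      refine h.eq_zero₂ (W₂.sub_mem v.2 v'.2) fun u hu => ?_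
      have h2 := LinearMap.congr_fun hvv ⟨u, hu⟩
      rw [Hyp.fn_apply, Hyp.fn_apply] at h2
      rw [map_sub, h2, sub_self]
    exact Subtype.ext (sub_eq_zero.1 h1)
  let ψ : W₁ → (W₂ →ₗ[F] F) := fun u => (B u).comp W₂.subtype
  have hψ : Function.Injective ψ := by
    intro u u' huu
    have h1 : (u : V) - u' = 0 := by
      refine h.eq_zero₁ (W₁.sub_mem u.2 u'.2) fun v hv => ?_
      have h2 : B u v = B u' v := LinearMap.congr_fun huu ⟨v, hv⟩
      rw [map_sub, LinearMap.sub_apply, h2, sub_self]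
    exact Subtype.ext (sub_eq_zero.1 h1)
  obtain ⟨hf1, hc1⟩ := Hyp.card_fn_le (σ := σ) W₁
  obtain ⟨hf2, hc2⟩ := Hyp.card_fn_le (σ := RingHom.id F) W₂
  have h12 := (Nat.card_le_card_of_injective _ hψ).trans hc2
  have h21 := (Nat.card_le_card_of_injective _ hinj)
  exact ⟨hinj.bijective_of_nat_card_le (hc1.trans h12), le_antisymm h12 (h21.trans hc1)⟩

theorem Hyp.finrank_eq (h : Hyp B W₁ W₂) : finrank F V = 2 * finrank F W₁ := by
  have h1 := h.fn_bijective.2
  rw [card_submodule, card_submodule] at h1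
  have h2 := Nat.pow_right_injective (Finite.one_lt_card (α := F)) h1
  have h3 := Submodule.finrank_add_eq_of_isCompl h.compl
  omega

/-- The automorphism of `W₂` belonging to an automorphism of `W₁`. -/
theorem Hyp.exists_dual (h : Hyp B W₁ W₂) (a : W₁ ≃ₗ[F] W₁) :
    ∃ b : W₂ ≃ₗ[F] W₂, ∀ (u : W₁) (v : W₂), B (a u) (b v) = B u v := by
  obtain ⟨⟨hinj, hsurj⟩, -⟩ := h.fn_bijective
  choose b hb using fun v : W₂ => hsurj ((Hyp.fn B W₁ W₂ v).comp (a.symm : W₁ →ₗ[F] W₁))
  have hb' : ∀ (u : W₁) (v : W₂), B u (b v) = B (a.symm u) v := fun u v => LinearMap.congr_fun (hb v) u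
  have hinj' : ∀ v v' : W₂, (∀ u : W₁, B u v = B u v') → v = v' := fun v v' huv =>
    hinj (LinearMap.ext huv)
  let bl : W₂ →ₗ[F] W₂ :=
    { toFun := b
      map_add' := fun v v' => hinj' _ _ fun u => by
        rw [hb', Submodule.coe_add, Submodule.coe_add, map_add, map_add, hb', hb']
      map_smul' := fun c v => hinj' _ _ fun u => by
        rw [hb', RingHom.id_apply, Submodule.coe_smul, Submodule.coe_smul, map_smul, map_smul, hb'] }
  have hbl : Function.Injective bl := by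
    rw [injective_iff_map_eq_zero]
    intro v hv
    apply hinj' _ _ fun u => ?_
    have h1 := hb' (a u) v
    have h2 : b v = 0 := hv
    rw [h2, Submodule.coe_zero, map_zero, a.symm_apply_apply] at h1
    rw [← h1, Submodule.coe_zero, map_zero]
  refine ⟨LinearEquiv.ofInjectiveEndo bl hbl, fun u v => ?_⟩
  show B (a u) (b v) = B u v
  rw [hb', a.symm_apply_apply]

/-- **The isometries commuting with `w` are the automorphisms of `W₁` commuting with `w`.** -/
theorem card_isometry (h : Hyp B W₁ W₂) (w : V ≃ₗ[F] V) (hw : ∀ u v, B (w u) (w v) = B u v)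
    (i1 : ∀ u ∈ W₁, w u ∈ W₁) (i2 : ∀ u ∈ W₂, w u ∈ W₂)
    (hp1 : ∀ g : V ≃ₗ[F] V, (∀ v, g (w v) = w (g v)) → ∀ u ∈ W₁, g u ∈ W₁)
    (hp2 : ∀ g : V ≃ₗ[F] V, (∀ v, g (w v) = w (g v)) → ∀ u ∈ W₂, g u ∈ W₂) :
    Nat.card {g : V ≃ₗ[F] V // (∀ u v, B (g u) (g v) = B u v) ∧ ∀ v, g (w v) = w (g v)} =
      Nat.card {a : W₁ ≃ₗ[F] W₁ // ∀ v, a ((w : V →ₗ[F] V).restrict i1 v) =
        (w : V →ₗ[F] V).restrict i1 (a v)} := by
  classical
  have hfV : Finite V := Module.finite_of_finite F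
  let f : {g : V ≃ₗ[F] V // (∀ u v, B (g u) (g v) = B u v) ∧ ∀ v, g (w v) = w (g v)} →
      {a : W₁ ≃ₗ[F] W₁ // ∀ v, a ((w : V →ₗ[F] V).restrict i1 v) = (w : V →ₗ[F] V).restrict i1 (a v)} := fun g =>
    ⟨LinearEquiv.ofInjectiveEndo ((g.1 : V →ₗ[F] V).restrict (hp1 g.1 g.2.2)) (fun x y hxy =>
        Subtype.ext (g.1.injective (congrArg Subtype.val hxy))),
      fun v => Subtype.ext (g.2.2 v)⟩
  have hfa : ∀ g (u : W₁), (((f g).1 u : W₁) : V) = g.1 u := fun g u => rfl
  refine Nat.card_congr (Equiv.ofBijective f ⟨?_, ?_⟩)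
  · intro g g' hgg
    have h1 : ∀ u ∈ W₁, g.1 u = g'.1 u := fun u hu => by
      have := congrArg (fun a => ((a.1 ⟨u, hu⟩ : W₁) : V)) hgg
      simpa only [hfa] using this
    apply Subtype.ext
    apply LinearEquiv.ext
    intro x
    obtain ⟨u, hu, v, hv, rfl⟩ := h.exists_add x
    rw [map_add, map_add, h1 u hu]
    congr 1
    apply sub_eq_zero.1
    refine h.eq_zero₂ (W₂.sub_mem (hp2 g.1 g.2.2 v hv) (hp2 g'.1 g'.2.2 v hv)) fun y hy => ?_
    obtain ⟨z, hz⟩ : ∃ z : W₁, (f g).1 z = ⟨y, hy⟩ := (f g).1.surjective _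
    have hz' : g.1 z = y := by rw [← hfa, hz]
    have hz'' : g'.1 z = y := by rw [← h1 z z.2, hz']
    rw [map_sub]
    nth_rewrite 1 [← hz']
    rw [← hz'', g.2.1, g'.2.1, sub_self]
  · rintro ⟨a, ha⟩
    obtain ⟨b, hb⟩ := h.exists_dual a
    let e := Submodule.prodEquivOfIsCompl W₁ W₂ h.compl
    let g : V ≃ₗ[F] V := e.symm ≪≫ₗ (a.prodCongr b) ≪≫ₗ e
    have hge : ∀ (u : W₁) (v : W₂), g ((u : V) + v) = a u + b v := by
      intro u v
      have h1 : (u : V) + v = e (u, v) := by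
        rw [Submodule.coe_prodEquivOfIsCompl']
      show e ((a.prodCongr b) (e.symm ((u : V) + v))) = _
      rw [h1, e.symm_apply_apply, LinearEquiv.prodCongr_apply, Submodule.coe_prodEquivOfIsCompl']
    have ha' : ∀ u : W₁, ((a ⟨w u, i1 u u.2⟩ : W₁) : V) = w (a u) := fun u => congrArg Subtype.val (ha u)
    have hb' : ∀ v : W₂, ((b ⟨w v, i2 v v.2⟩ : W₂) : V) = w (b v) := by
      intro v
      apply sub_eq_zero.1
      refine h.eq_zero₂ (W₂.sub_mem (b _).2 (i2 _ (b v).2)) fun y hy => ?_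
      -- `y = a (w u)`
      have hsw : Function.Surjective ((w : V →ₗ[F] V).restrict i1) :=
        LinearMap.injective_iff_surjective.1 fun x y hxy =>
          Subtype.ext (w.injective (congrArg Subtype.val hxy))
      obtain ⟨z, hz⟩ := a.surjective ⟨y, hy⟩
      obtain ⟨u, hu⟩ := hsw z
      have hy1 : y = a ⟨w u, i1 u u.2⟩ := by
        have : (⟨w u, i1 u u.2⟩ : W₁) = z := hu
        rw [this, hz]
      rw [map_sub, hy1, hb, ha' u, hw]
      rw [show B (w (a u)) (w (b v)) = B u v from (hw _ _).trans (hb u v), sub_self]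
    refine ⟨⟨g, ?_, ?_⟩, ?_⟩
    · intro x y
      obtain ⟨u, hu, v, hv, rfl⟩ := h.exists_add x
      obtain ⟨u', hu', v', hv', rfl⟩ := h.exists_add y
      have e1 := hge ⟨u, hu⟩ ⟨v, hv⟩
      have e2 := hge ⟨u', hu'⟩ ⟨v', hv'⟩
      simp only at e1 e2
      rw [e1, e2]
      have k1 := hb ⟨u, hu⟩ ⟨v', hv'⟩
      simp only [map_add, LinearMap.add_apply]
      obtain ⟨ε, hε⟩ := h.sym
      have k2 := hb ⟨u', hu'⟩ ⟨v, hv⟩
      rw [k1, h.iso₁ _ (a _).2 _ (a _).2, h.iso₂ _ (b _).2 _ (b _).2, h.iso₁ _ hu _ hu', h.iso₂ _ hv _ hv',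
        hε (a ⟨u', hu'⟩ : V) (b ⟨v, hv⟩ : V), k2, hε u' v]
    · intro x
      obtain ⟨u, hu, v, hv, rfl⟩ := h.exists_add x
      have e1 := hge ⟨u, hu⟩ ⟨v, hv⟩
      have e2 := hge ⟨w u, i1 u hu⟩ ⟨w v, i2 v hv⟩
      simp only at e1 e2
      rw [map_add, e1, e2, map_add, ← ha' ⟨u, hu⟩, ← hb' ⟨v, hv⟩]
    · apply Subtype.ext
      apply LinearEquiv.ext
      intro u
      apply Subtype.ext
      rw [hfa]
      have := hge u 0
      rwa [map_zero, Submodule.coe_zero, add_zero, add_zero] at this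

/-- **Linear type.** -/
theorem card_lin (h : Hyp B W₁ W₂) (w : V ≃ₗ[F] V) (hw : ∀ u v, B (w u) (w v) = B u v)
    (i1 : ∀ u ∈ W₁, w u ∈ W₁) (i2 : ∀ u ∈ W₂, w u ∈ W₂)
    (hp1 : ∀ g : V ≃ₗ[F] V, (∀ v, g (w v) = w (g v)) → ∀ u ∈ W₁, g u ∈ W₁)
    (hp2 : ∀ g : V ≃ₗ[F] V, (∀ v, g (w v) = w (g v)) → ∀ u ∈ W₂, g u ∈ W₂)
    (hirr : Irreducible (minpoly F ((w : V →ₗ[F] V).restrict i1))) :
    ∃ m : ℕ, finrank F V = 2 * ((minpoly F ((w : V →ₗ[F] V).restrict i1)).natDegree * m) ∧
      Nat.card {g : V ≃ₗ[F] V // (∀ u v, B (g u) (g v) = B u v) ∧ ∀ v, g (w v) = w (g v)} =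
        ∏ i ∈ Finset.range m, ((Nat.card F ^ (minpoly F ((w : V →ₗ[F] V).restrict i1)).natDegree) ^ m -
          (Nat.card F ^ (minpoly F ((w : V →ₗ[F] V).restrict i1)).natDegree) ^ i) := by
  obtain ⟨m, h1, h2⟩ := card_comm ((w : V →ₗ[F] V).restrict i1) hirr
  exact ⟨m, by rw [h.finrank_eq, h1], by rw [card_isometry h w hw i1 i2 hp1 hp2, h2]⟩

omit [Finite F] [FiniteDimensional F V] in
theorem aeval_restrict {w : Module.End F V} {W : Submodule F V} (i : ∀ u ∈ W, w u ∈ W) (P : F[X]) (u : W) :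
    ((aeval (w.restrict i) P u : W) : V) = aeval w P u := by
  induction P using Polynomial.induction_on' with
  | add p q hp hq => rw [map_add, map_add, LinearMap.add_apply, LinearMap.add_apply, Submodule.coe_add, hp, hq]
  | monomial n a =>
    rw [aeval_monomial, aeval_monomial, Module.End.mul_apply, Module.End.mul_apply, Module.algebraMap_end_apply,
      Module.algebraMap_end_apply, Submodule.coe_smul]
    congr 1
    induction n with
    | zero => rfl
    | succ n ih =>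
      rw [pow_succ', pow_succ', Module.End.mul_apply, Module.End.mul_apply, ← ih]
      rfl

/-- **Linear type**, with `W₁`, `W₂` the kernels of `p₀(w)`, `p₁(w)`. -/
theorem card_lin_ker [Nontrivial V] (sym : ∃ ε : F, ∀ u v, B v u = ε * σ (B u v))
    (nd : ∀ v, (∀ u, B u v = 0) → v = 0) (nd' : ∀ u, (∀ v, B u v = 0) → u = 0)
    (w : V ≃ₗ[F] V) (hw : ∀ u v, B (w u) (w v) = B u v) {p₀ p₁ : F[X]} (hcop : IsCoprime p₀ p₁)
    (h01 : aeval (w : V →ₗ[F] V) (p₀ * p₁) = 0)
    (iso₁ : ∀ u v, aeval (w : V →ₗ[F] V) p₀ u = 0 → aeval (w : V →ₗ[F] V) p₀ v = 0 → B u v = 0)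
    (iso₂ : ∀ u v, aeval (w : V →ₗ[F] V) p₁ u = 0 → aeval (w : V →ₗ[F] V) p₁ v = 0 → B u v = 0)
    (hirr : Irreducible p₀) :
    ∃ m : ℕ, finrank F V = 2 * (p₀.natDegree * m) ∧
      Nat.card {g : V ≃ₗ[F] V // (∀ u v, B (g u) (g v) = B u v) ∧ ∀ v, g (w v) = w (g v)} =
        ∏ i ∈ Finset.range m, ((Nat.card F ^ p₀.natDegree) ^ m - (Nat.card F ^ p₀.natDegree) ^ i) := by
  have hc : IsCompl (LinearMap.ker (aeval (w : V →ₗ[F] V) p₀)) (LinearMap.ker (aeval (w : V →ₗ[F] V) p₁)) := by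
    constructor
    · exact Polynomial.disjoint_ker_aeval_of_isCoprime _ hcop
    · rw [codisjoint_iff, Polynomial.sup_ker_aeval_eq_ker_aeval_mul_of_coprime _ hcop, h01, LinearMap.ker_zero]
  have h : Hyp B (LinearMap.ker (aeval (w : V →ₗ[F] V) p₀)) (LinearMap.ker (aeval (w : V →ₗ[F] V) p₁)) :=
    ⟨sym, nd, nd', hc, fun u hu v hv => iso₁ u v hu hv, fun u hu v hv => iso₂ u v hu hv⟩
  have hp : ∀ (P : F[X]) (g : V ≃ₗ[F] V), (∀ v, g (w v) = w (g v)) →
      ∀ u ∈ LinearMap.ker (aeval (w : V →ₗ[F] V) P), g u ∈ LinearMap.ker (aeval (w : V →ₗ[F] V) P) := by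
    intro P g hg u hu
    rw [LinearMap.mem_ker] at hu ⊢
    have := aeval_comm_apply (T := (w : V →ₗ[F] V)) (g := (g : V →ₗ[F] V)) hg P u
    rw [hu, map_zero] at this
    exact this.symm
  have i1 := hp p₀ w (fun v => rfl)
  have i2 := hp p₁ w (fun v => rfl)
  have hfr := h.finrank_eq
  have hpos : 0 < finrank F V := finrank_pos
  have hnt : Nontrivial (LinearMap.ker (aeval (w : V →ₗ[F] V) p₀)) := by
    apply Module.nontrivial_of_finrank_pos (R := F)
    omega
  set T := (w : V →ₗ[F] V).restrict i1 with hT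
  have hT0 : aeval T p₀ = 0 := by
    apply LinearMap.ext
    intro u
    apply Subtype.ext
    rw [hT, aeval_restrict]
    exact u.2
  have hint : IsIntegral F T := Algebra.IsIntegral.isIntegral T
  have hd := minpoly.dvd F T hT0
  have hass : Associated (minpoly F T) p₀ := by
    obtain ⟨c, hc⟩ := hd
    rcases hirr.isUnit_or_isUnit hc with h1 | h1
    · exact absurd h1 (minpoly.not_isUnit F T)
    · exact ⟨h1.unit, hc.symm⟩
  have hirr' : Irreducible (minpoly F T) := hass.symm.irreducible hirr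
  have hdeg : (minpoly F T).natDegree = p₀.natDegree := natDegree_eq_of_degree_eq (degree_eq_degree_of_associated hass)
  obtain ⟨m, h1, h2⟩ := card_lin h w hw i1 i2 (hp p₀) (hp p₁) hirr'
  exact ⟨m, by rw [h1, hdeg], by rw [h2, hdeg]⟩

end isotropic

end Cfsg.Agent.H446.CS
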