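import Cfsg.Agent.H326.CGU.Lin
import Cfsg.Agent.H155.Root
import Cfsg.Agent.H364.Unitary

/-!
# Centralizers in unitary groups of the elements of an irreducible torus (helper446)

`w` an isometry of a hermitian space over `F`, `|F| = q²`, such that `P(w) = 0` for all polynomials `P` with the roots
`a`, `a ^ (-q)`: the centralizer is `GU_m(q^k)` (`k` odd) or `GL_m(q^k)` (`k` even), `k m` the dimension.
-/

set_option autoImplicit false

namespace Cfsg.Agent.H446.CS

open Module Polynomial Cfsg.Agent.H326.CGU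

universe u v w

/-- the order of `GU_m(q^k)` (`k` odd), `GL_m(q^k)` (`k` even) -/
def cc (q m k : ℕ) : ℕ := (q ^ k) ^ (m * (m - 1) / 2) *
  ∏ i ∈ Finset.range m, (if Odd k then (if Even i then (q ^ k) ^ (i + 1) + 1 else (q ^ k) ^ (i + 1) - 1)
    else (q ^ k) ^ (i + 1) - 1)

theorem cc_odd {q m k : ℕ} (hk : Odd k) : cc q m k = guCard m (q ^ k) := by
  simp only [cc, guCard, if_pos hk]

theorem cc_even {q m k : ℕ} (hk : ¬ Odd k) :
    cc q m k = ∏ i ∈ Finset.range m, ((q ^ k) ^ m - (q ^ k) ^ i) := by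
  have h := glCard_eq m (q ^ k)
  rw [glCard, ← Finset.prod_range (fun i => (q ^ k) ^ m - (q ^ k) ^ i)] at h
  rw [h]
  simp only [cc, if_neg hk]

section parity

variable {F : Type u} [Field F] [Fintype F] {q : ℕ}

theorem pow_eq_self_iff {L : Type v} [Field L] [Algebra F L] {l : L} (hl : IsIntegral F l) (m : ℕ) :
    l ^ (Nat.card F ^ m) = l ↔ (minpoly F l).natDegree ∣ m := by
  rw [(minpoly.irreducible hl).natDegree_dvd_iff_dvd_X_pow_card_pow_sub_X]
  rw [minpoly.dvd_iff, map_sub, map_pow, aeval_X, sub_eq_zero]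

theorem pow_card_injective {L : Type v} [Field L] [Algebra F L] :
    Function.Injective (fun l : L => l ^ Nat.card F) := by
  have h1 : Function.Injective (FiniteField.frobeniusAlgHom F L) := RingHom.injective _
  rw [FiniteField.coe_frobeniusAlgHom, ← Nat.card_eq_fintype_card] at h1
  exact h1

/-- If `a` and `a ^ (-q)` are conjugate over `F`, `|F| = q²`, then `a` has odd degree. -/
theorem odd_of_fin (hF : Fintype.card F = q ^ 2) {L : Type v} [Field L] [Finite L] [Algebra F L] {a : L}
    (h : minpoly F ((a ^ q)⁻¹) = minpoly F a) : Odd (minpoly F a).natDegree := by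
  obtain ⟨i, hi⟩ := Cfsg.Agent.H155.Root.exists_frob h.symm
  have hFc : Nat.card F = q ^ 2 := by rw [Nat.card_eq_fintype_card, hF]
  have hint : IsIntegral F a := IsIntegral.of_finite F a
  have h1 : a ^ (Nat.card F) = a ^ (Nat.card F ^ (2 * i)) := by
    have h2 : ((a ^ q)⁻¹ ^ q)⁻¹ = a ^ (Nat.card F) := by
      rw [inv_pow, inv_inv, ← pow_mul, ← sq, hFc]
    have h3 : ((a ^ q)⁻¹ ^ q)⁻¹ = ((a ^ q)⁻¹) ^ (Nat.card F ^ i) := by
      rw [hi, ← pow_mul, mul_comm, pow_mul, ← inv_pow, hi]
    rw [← h2, h3, hi, ← pow_mul, ← pow_add, two_mul]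
  rcases Nat.eq_zero_or_pos i with rfl | hi0
  · rw [mul_zero, pow_zero, pow_one] at h1
    have h2 := (pow_eq_self_iff hint 1).1 (by rw [pow_one]; exact h1)
    rw [Nat.dvd_one.1 h2]
    exact odd_one
  · have h2 : a = a ^ (Nat.card F ^ (2 * i - 1)) := by
      apply pow_card_injective (F := F)
      show a ^ Nat.card F = (a ^ (Nat.card F ^ (2 * i - 1))) ^ Nat.card F
      rw [h1, ← pow_mul, ← pow_succ, Nat.sub_add_cancel (by omega)]
    have h3 := (pow_eq_self_iff hint _).1 h2.symm
    exact Odd.of_dvd_nat ⟨i - 1, by omega⟩ h3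

/-- The same for an element of any extension. -/
theorem odd_of (hF : Fintype.card F = q ^ 2) {L : Type v} [Field L] [Algebra F L] {a : L} (hint : IsIntegral F a)
    (h : aeval ((a ^ q)⁻¹) (minpoly F a) = 0) : Odd (minpoly F a).natDegree := by
  have hfd : FiniteDimensional F (IntermediateField.adjoin F {a}) := IntermediateField.adjoin.finiteDimensional hint
  have hfin : Finite (IntermediateField.adjoin F {a}) := Module.finite_of_finite F
  let a' : IntermediateField.adjoin F {a} := ⟨a, IntermediateField.mem_adjoin_simple_self F a⟩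
  have h1 : minpoly F a' = minpoly F a := IntermediateField.minpoly_eq a'
  rw [← h1]
  apply odd_of_fin hF
  have h2 : aeval ((a' ^ q)⁻¹) (minpoly F a') = 0 := by
    rw [h1]
    apply (algebraMap (IntermediateField.adjoin F {a}) L).injective
    rw [map_zero, ← aeval_algebraMap_apply]
    exact h
  rw [h1] at h2 ⊢
  exact (minpoly.eq_of_irreducible_of_monic (minpoly.irreducible hint) h2 (minpoly.monic hint)).symm

end parity

section classify

variable {F : Type u} [Field F] [Fintype F] {q : ℕ} {σ : F →+* F}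

/-- `P(x) ^ q = P^σ(x ^ q)` -/
theorem frob_aeval (hF : Fintype.card F = q ^ 2) (hσ : ∀ c, σ c = c ^ q) {K : Type v} [Field K] [Algebra F K] (x : K)
    (P : F[X]) : (aeval x P) ^ q = aeval (x ^ q) (P.map σ) := by
  obtain ⟨φ, hφ⟩ := Cfsg.Agent.H364.Unitary.exists_frob (F := F) K hF
  rw [← hφ, aeval_def, hom_eval₂, hφ, aeval_def, eval₂_map]
  congr 1
  ext c
  rw [RingHom.comp_apply, RingHom.comp_apply, hφ, hσ, map_pow]

omit [Fintype F] in
theorem aeval_reverse_iff {K : Type v} [Field K] [Algebra F K] {x : K} (hx : x ≠ 0) (P : F[X]) :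
    aeval x⁻¹ P.reverse = 0 ↔ aeval x P = 0 := by
  have := invertibleOfNonzero hx
  have h1 := eval₂_reverse_eq_zero_iff (algebraMap F K) x P
  rw [invOf_eq_inv] at h1
  exact h1

theorem map_map_eq (hF : Fintype.card F = q ^ 2) (hσ : ∀ c, σ c = c ^ q) (P : F[X]) : (P.map σ).map σ = P := by
  rw [Polynomial.map_map]
  have h1 : σ.comp σ = RingHom.id F := by
    ext c
    rw [RingHom.comp_apply, hσ, hσ, ← pow_mul, ← sq, ← hF, FiniteField.pow_card]
    rfl
  rw [h1, Polynomial.map_id]

/-- **The centralizer of an isometry of a hermitian space** which is killed by the polynomials with the roots `a`,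
`a ^ (-q)`. -/
theorem classify (hF : Fintype.card F = q ^ 2) (hσ : ∀ c, σ c = c ^ q) {W : Type w} [AddCommGroup W] [Module F W]
    [FiniteDimensional F W] [Nontrivial W] (B : W →ₛₗ[σ] W →ₗ[F] F) (hs : ∀ u v, B v u = σ (B u v))
    (hnd : ∀ u, (∀ v, B u v = 0) → u = 0) (t : W ≃ₗ[F] W) (ht : ∀ u v, B (t u) (t v) = B u v)
    {K : Type v} [Field K] [Algebra F K] {a : K} (hint : IsIntegral F a) (ha : a ≠ 0)
    (h : ∀ P : F[X], aeval a P = 0 → aeval ((a ^ q)⁻¹) P = 0 → aeval (t : W →ₗ[F] W) P = 0) :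
    ∃ m k : ℕ, 0 < k ∧ k * m = finrank F W ∧
      Nat.card {g : W ≃ₗ[F] W // (∀ u v, B (g u) (g v) = B u v) ∧ ∀ v, g (t v) = t (g v)} = cc q m k ∧
      ∃ P : F[X], P ≠ 0 ∧ P.natDegree ≤ k ∧ aeval a P = 0 ∧ aeval ((a ^ q)⁻¹) P = 0 := by
  have hq2 : 2 ≤ q := Cfsg.Agent.LieClassical.HermBasic.two_le hF
  set p := minpoly F a with hp
  have hirr : Irreducible p := minpoly.irreducible hint
  have hpa : aeval a p = 0 := minpoly.aeval F a
  have hp0 : p ≠ 0 := hirr.ne_zero
  have haq : (a ^ q) ≠ 0 := pow_ne_zero _ ha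
  by_cases hpb : aeval ((a ^ q)⁻¹) p = 0
  · -- unitary type
    have hpt := h p hpa hpb
    have hmin : minpoly F (t : W →ₗ[F] W) = p :=
      (minpoly.eq_of_irreducible_of_monic hirr hpt (minpoly.monic hint)).symm
    have hσne : σ ≠ RingHom.id F := by
      intro h0
      obtain ⟨x, hx⟩ := Cfsg.Agent.LieClassical.HermBasic.exists_not_fixed hF
      apply hx
      rw [← hσ, h0]
      rfl
    obtain ⟨s, m, hsd, hfr, -, hcard⟩ := card_cent_unitary
      (fun c => by rw [hσ, hσ, ← pow_mul, ← sq, ← hF, FiniteField.pow_card]) B (ε := 1) (Or.inl rfl)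
      (fun u v => by rw [one_mul]; exact hs u v) hnd t ht (by rw [hmin]; exact hirr) (Or.inl hσne)
    rw [hmin] at hsd hfr
    refine ⟨m, p.natDegree, hirr.natDegree_pos, hfr.symm, ?_, p, hp0, le_rfl, hpa, hpb⟩
    have hsq : s = q ^ p.natDegree := by
      have h1 : s ^ 2 = (q ^ p.natDegree) ^ 2 := by rw [hsd, hF, ← pow_mul, ← pow_mul, mul_comm]
      exact Nat.pow_left_injective (n := 2) (by norm_num) h1
    rw [hcard, cc_odd (odd_of hF hint hpb), hsq]
  · -- linear type
    have hpb' : aeval ((a ^ q)⁻¹) (p.map σ).reverse = 0 := by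
      rw [aeval_reverse_iff haq, ← frob_aeval hF hσ, hpa, zero_pow (by omega)]
    have hcop : IsCoprime p (p.map σ).reverse := by
      rw [hirr.coprime_iff_not_dvd]
      intro hd
      apply hpb
      have h1 : aeval a (p.map σ).reverse = 0 := by
        obtain ⟨c, hc⟩ := hd
        rw [hc, map_mul, hpa, zero_mul]
      have h2 : aeval a⁻¹ (p.map σ) = 0 := by
        rw [← inv_inv a, aeval_reverse_iff (inv_ne_zero ha)] at h1
        exact h1
      have h3 := frob_aeval hF hσ a⁻¹ (p.map σ)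
      rw [h2, zero_pow (by omega), map_map_eq hF hσ, inv_pow] at h3
      exact h3.symm
    have hmin : aeval (t : W →ₗ[F] W) (p * (p.map σ).reverse) = 0 := by
      apply h
      · rw [map_mul, hpa, zero_mul]
      · rw [map_mul, hpb', mul_zero]
    obtain ⟨m, hfr, hcard⟩ := card_cent_linear' B (ε := 1) (fun u v => by rw [one_mul]; exact hs u v) hnd t ht hirr
      hcop hmin
    refine ⟨m, 2 * p.natDegree, Nat.mul_pos (by norm_num) hirr.natDegree_pos, hfr.symm, ?_, p * (p.map σ).reverse,
      ?_, ?_, ?_, ?_⟩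
    · have hne : ¬ Odd (2 * p.natDegree) := by
        rw [Nat.not_odd_iff_even]
        exact even_two_mul _
      have hQ : (q ^ 2) ^ p.natDegree = q ^ (2 * p.natDegree) := (pow_mul q 2 p.natDegree).symm
      rw [hcard, cc_even hne, glCard, hF, hQ]
      exact Finset.prod_range (fun i => (q ^ (2 * p.natDegree)) ^ m - (q ^ (2 * p.natDegree)) ^ i) |>.symm
    · refine mul_ne_zero hp0 ?_
      rw [Ne, reverse_eq_zero, Polynomial.map_eq_zero]
      exact hp0
    · refine natDegree_mul_le.trans ?_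
      have h1 : (p.map σ).reverse.natDegree ≤ p.natDegree :=
        (reverse_natDegree_le _).trans (natDegree_map_le)
      omega
    · rw [map_mul, hpa, zero_mul]
    · rw [map_mul, hpb', mul_zero]

end classify

end Cfsg.Agent.H446.CS
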