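import Cfsg.Agent.H364.UnitaryReg
import Cfsg.Agent.H446.CS.Cls

/-!
# Elements of `SU_{N+1}(q)` commuting with an element of prime order `r`, `ord_r(-q) = N` (helper446)
-/

set_option autoImplicit false

namespace Cfsg.Agent.H446.CS

open Matrix Polynomial Cfsg Cfsg.Agent.H364.Regular Cfsg.Agent.H364.Unitary Cfsg.Agent.LieClassical.HermBasic

universe u

variable {F : Type u} [Field F] [Fintype F] {n N q : ℕ}

section

variable (K : Type u) [Field K] [Algebra F K]

/-- The vector dual to an eigenvector. -/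
theorem dual_eig (hF : Fintype.card F = q ^ 2) (X : SU n F q) {lam : Fin n → K} {v : Fin n → Fin n → K}
    (hX : Eig (mK K X) lam v) {i j : Fin n} (hij : lam j = (lam i ^ q)⁻¹) :
    (∀ k, k ≠ j → (fun l => v i l ^ q) ⬝ᵥ v k = 0) ∧ (fun l => v i l ^ q) ⬝ᵥ v j ≠ 0 := by
  have hq : 0 < q := Cfsg.Agent.LieClassical.HermBasic.q_pos hF
  obtain ⟨-, h1⟩ := transpose_eigen K hF X (hX.ne i) (hX.eq i)
  set w : Fin n → K := fun k => v i k ^ q with hw
  have hw0 : w ≠ 0 := by
    intro h3
    apply hX.ne i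
    funext k
    exact pow_eq_zero_iff hq.ne' |>.1 (congrFun h3 k)
  have h3 : ∀ k, k ≠ j → w ⬝ᵥ v k = 0 := by
    intro k hk
    have h4 : ((mK K X)ᵀ *ᵥ w) ⬝ᵥ v k = w ⬝ᵥ (mK K X *ᵥ v k) := by
      rw [Matrix.mulVec_transpose, ← Matrix.dotProduct_mulVec]
    rw [h1, hX.eq, smul_dotProduct, dotProduct_smul, ← hij] at h4
    have h5 : (lam j - lam k) • (w ⬝ᵥ v k) = 0 := by rw [sub_smul, h4, sub_self]
    rcases smul_eq_zero.1 h5 with h6 | h6
    · exact absurd (hX.inj (sub_eq_zero.1 h6)).symm hk
    · exact h6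
  refine ⟨h3, fun h5 => ?_⟩
  apply hw0
  have h6 : ∀ u : Fin n → K, w ⬝ᵥ u = 0 := by
    intro u
    rw [← hX.basis.sum_repr u, dotProduct_sum]
    apply Finset.sum_eq_zero
    intro k _
    rw [dotProduct_smul, hX.basis_apply]
    by_cases hk : k = j
    · subst hk; rw [h5, smul_zero]
    · rw [h3 k hk, smul_zero]
  funext k
  have := h6 (Pi.single k 1)
  rwa [dotProduct_single_one] at this

/-- the eigenvalues of the elements of order `r` -/
noncomputable def lam (q N : ℕ) (z : K) (i : Fin (N + 1)) : K :=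
  if (i : ℕ) < N then z ^ ((-(q : ℤ)) ^ (i : ℕ)) else 1

theorem dvd_sg_of {r : ℕ} (hr : r.Prime) (hN : 2 ≤ N) (ho : orderOf (-(q : ZMod r)) = N) : (r : ℤ) ∣ sg q N := by
  have := Fact.mk hr
  have h1 := congrArg (Int.cast : ℤ → ZMod r) (sg_mul q N)
  push_cast at h1
  have h2 : (-(q : ZMod r)) ^ N = 1 := by rw [← ho]; exact pow_orderOf_eq_one _
  rw [h2, sub_self] at h1
  rw [← ZMod.intCast_zmod_eq_zero_iff_dvd]
  refine (mul_eq_zero.1 h1).resolve_right fun h3 => ?_
  have h4 : -(q : ZMod r) = 1 := by rw [← sub_eq_zero]; exact h3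
  rw [h4, orderOf_one] at ho
  omega

/-- An element of prime order `r` with `ord_r (-q) = N` has the eigenvalues `z ^ ((-q) ^ i)` and `1`. -/
theorem exists_eig_sub [IsAlgClosed K] (hF : Fintype.card F = q ^ 2) {r : ℕ} (hr : r.Prime) (hrF : (r : F) ≠ 0)
    (g : SU (N + 1) F q) (hg : orderOf g = r) (hN : 2 ≤ N) (ho : orderOf (-(q : ZMod r)) = N) :
    ∃ (z : K) (v : Fin (N + 1) → Fin (N + 1) → K), IsPrimitiveRoot z r ∧ Eig (mK K g) (lam K q N z) v := by
  have hrK : (r : K) ≠ 0 := by
    intro h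
    apply hrF
    apply (algebraMap F K).injective
    rw [map_natCast, h, map_zero]
  have hX : mK K g ^ r = 1 := by rw [← mK_pow, ← hg, pow_orderOf_eq_one, mK_one]
  have hX1 : mK K g ≠ 1 := by
    intro h
    rw [← mK_one (F := F) (n := N + 1) (q := q) K] at h
    have := mK_injective K h
    rw [this, orderOf_one] at hg
    exact hr.one_lt.ne hg
  obtain ⟨z, v, hz, hv, hzv⟩ := exists_primitive_eigenvalue hr hrK hX hX1
  have hz0 : z ≠ 0 := hz.ne_zero hr.ne_zero
  choose w hw hw2 using exists_iter K hF g hv hzv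
  have hinj : Set.InjOn (fun i : ℕ => z ^ ((-(q : ℤ)) ^ i)) (Finset.range N : Set ℕ) := by
    intro i hi j hj hij
    have h1 := (zpow_eq_iff K hz hr _ _).1 hij
    push_cast at h1
    rw [Finset.coe_range, Set.mem_Iio] at hi hj
    exact pow_injOn_Iio_orderOf (Set.mem_Iio.2 (lt_of_lt_of_le hi ho.ge)) (Set.mem_Iio.2 (lt_of_lt_of_le hj ho.ge)) h1
  have hne1 : ∀ i : ℕ, z ^ ((-(q : ℤ)) ^ i) ≠ 1 := by
    intro i h1
    have h2 : z ^ ((-(q : ℤ)) ^ i) = z ^ (0 : ℤ) := by rw [h1, _root_.zpow_zero]
    rw [zpow_eq_iff K hz hr] at h2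
    push_cast at h2
    have := Fact.mk hr
    have h3 : (-(q : ZMod r)) = 0 := by
      by_contra h
      exact pow_ne_zero _ h h2
    rw [h3, orderOf_eq_zero_iff'.2 (fun k hk => by rw [zero_pow (by omega)]; exact zero_ne_one)] at ho
    omega
  classical
  set S : Finset K := (Finset.range N).image (fun i : ℕ => z ^ ((-(q : ℤ)) ^ i)) with hS
  have hScard : S.card = N := by
    rw [hS, Finset.card_image_of_injOn hinj, Finset.card_range]
  have hroot : ∀ (c : K) (x : Fin (N + 1) → K), x ≠ 0 → mK K g *ᵥ x = c • x → c ∈ (mK K g).charpoly.roots := by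
    intro c x hx hcx
    rw [mem_roots (Matrix.charpoly_monic _).ne_zero, IsRoot.def, Matrix.eval_charpoly]
    apply Matrix.exists_mulVec_eq_zero_iff.1
    refine ⟨x, hx, ?_⟩
    rw [Matrix.sub_mulVec, hcx]
    simp
  have hSle : S.val ≤ (mK K g).charpoly.roots := by
    rw [Multiset.le_iff_subset S.nodup]
    intro c hc
    rw [Finset.mem_val, hS, Finset.mem_image] at hc
    obtain ⟨i, -, rfl⟩ := hc
    exact hroot _ _ (hw i) (hw2 i)
  obtain ⟨t, ht⟩ := Multiset.le_iff_exists_add.1 hSle
  have hcard : Multiset.card (mK K g).charpoly.roots = N + 1 := by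
    rw [IsAlgClosed.card_roots_eq_natDegree, Matrix.charpoly_natDegree_eq_dim, Fintype.card_fin]
  have ht1 : Multiset.card t = 1 := by
    rw [ht, Multiset.card_add, Finset.card_val, hScard] at hcard
    omega
  obtain ⟨c, rfl⟩ := Multiset.card_eq_one.1 ht1
  have hdet := Matrix.det_eq_prod_roots_charpoly (mK K g)
  have hprod : S.val.prod = 1 := by
    have h1 : S.val.prod = ∏ x ∈ S, x := by rw [Finset.prod_val]; rfl
    rw [h1, hS, Finset.prod_image hinj]
    have h2 : ∀ s : Finset ℕ, ∏ i ∈ s, z ^ ((-(q : ℤ)) ^ i) = z ^ (∑ i ∈ s, (-(q : ℤ)) ^ i) := by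
      intro s
      induction s using Finset.induction_on with
      | empty => simp
      | insert a s ha ih => rw [Finset.prod_insert ha, Finset.sum_insert ha, zpow_add₀ hz0, ih]
    rw [h2]
    exact (hz.zpow_eq_one_iff_dvd _).2 (dvd_sg_of hr hN ho)
  rw [mK_det, ht, Multiset.prod_add, hprod, one_mul, Multiset.prod_singleton] at hdet
  subst hdet
  have h1 : (1 : K) ∈ (mK K g).charpoly.roots := by
    rw [ht]
    exact Multiset.mem_add.2 (Or.inr (Multiset.mem_singleton_self _))
  rw [mem_roots (Matrix.charpoly_monic _).ne_zero, IsRoot.def, Matrix.eval_charpoly] at h1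
  obtain ⟨x, hx, hx0⟩ := Matrix.exists_mulVec_eq_zero_iff.2 h1
  have hx1 : mK K g *ᵥ x = x := by
    rw [Matrix.sub_mulVec, sub_eq_zero] at hx0
    rw [← hx0]
    simp
  refine ⟨z, fun i => if (i : ℕ) < N then w i else x, hz, ⟨?_, ?_, ?_⟩⟩
  · intro i j hij
    simp only [lam] at hij
    by_cases hi : (i : ℕ) < N
    · by_cases hj : (j : ℕ) < N
      · rw [if_pos hi, if_pos hj] at hij
        exact Fin.ext (hinj (by simpa using hi) (by simpa using hj) hij)
      · rw [if_pos hi, if_neg hj] at hij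
        exact absurd hij (hne1 _)
    · by_cases hj : (j : ℕ) < N
      · rw [if_neg hi, if_pos hj] at hij
        exact absurd hij.symm (hne1 _)
      · apply Fin.ext
        omega
  · intro i
    by_cases hi : (i : ℕ) < N
    · simp only [if_pos hi]
      exact hw i
    · simp only [if_neg hi]
      exact hx
  · intro i
    by_cases hi : (i : ℕ) < N
    · simp only [lam, if_pos hi]
      exact hw2 i
    · simp only [lam, if_neg hi, one_smul]
      exact hx1

/-! ### The eigenvalues of a commuting element -/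

/-- the coordinates over `K` -/
def up (w : Fin n → F) : Fin n → K := fun i => algebraMap F K (w i)

omit [Fintype F] in
theorem up_add (w w' : Fin n → F) : up K (w + w') = up K w + up K w' := by
  funext i; simp [up]

omit [Fintype F] in
theorem up_smul (c : F) (w : Fin n → F) : up K (c • w) = algebraMap F K c • up K w := by
  funext i; simp [up]

omit [Fintype F] in
theorem up_injective : Function.Injective (up K : (Fin n → F) → _) := fun w w' h => by
  funext i
  exact (algebraMap F K).injective (congrFun h i)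

omit [Fintype F] in
theorem up_mulVec (Y : SU n F q) (w : Fin n → F) : up K (mat Y *ᵥ w) = mK K Y *ᵥ up K w := by
  funext i
  simp only [up, mK, Matrix.mulVec, dotProduct, map_sum, map_mul, Matrix.map_apply]

omit [Fintype F] in
theorem up_aeval (Y : SU n F q) {v : Fin n → Fin n → K} {mu : Fin n → K} (hY : ∀ i, mK K Y *ᵥ v i = mu i • v i)
    (P : F[X]) {w : Fin n → F} {c : Fin n → K} (hw : up K w = ∑ i, c i • v i) :
    up K (aeval (Matrix.toLin' (mat Y)) P w) = ∑ i, (aeval (mu i) P * c i) • v i := by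
  induction P using Polynomial.induction_on' with
  | add p p' hp hp' =>
    rw [map_add, LinearMap.add_apply, up_add, hp, hp', ← Finset.sum_add_distrib]
    refine Finset.sum_congr rfl fun i _ => ?_
    rw [map_add, ← add_smul, add_mul]
  | monomial k a =>
    have h1 : ∀ k : ℕ, up K ((Matrix.toLin' (mat Y) ^ k) w) = ∑ i, (mu i ^ k * c i) • v i := by
      intro k
      induction k with
      | zero => simpa using hw
      | succ k ih =>
        rw [pow_succ', Module.End.mul_apply, Matrix.toLin'_apply, up_mulVec, ih, Matrix.mulVec_sum]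
        refine Finset.sum_congr rfl fun i _ => ?_
        rw [Matrix.mulVec_smul, hY, smul_smul, pow_succ]
        congr 1
        ring
    rw [aeval_monomial, Module.End.mul_apply, Module.algebraMap_end_apply, up_smul, h1, Finset.smul_sum]
    refine Finset.sum_congr rfl fun i _ => ?_
    rw [smul_smul, aeval_monomial, mul_assoc]

/-- The polynomials with the roots `a`, `a ^ (-q)` have all roots `a ^ ((-q) ^ i)`. -/
theorem aeval_iter (hF : Fintype.card F = q ^ 2) {a : K} {P : F[X]} (h0 : aeval a P = 0)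
    (h1 : aeval ((a ^ q)⁻¹) P = 0) (i : ℕ) : aeval (a ^ ((-(q : ℤ)) ^ i)) P = 0 := by
  have hcard : ∀ x : K, aeval x P = 0 → aeval (x ^ (q ^ 2)) P = 0 := by
    intro x hx
    obtain ⟨φ, hφ⟩ := Cfsg.Agent.H364.Unitary.exists_frob (F := F) K hF
    have h2 : (φ.comp φ).comp (algebraMap F K) = algebraMap F K := by
      ext c
      rw [RingHom.comp_apply, RingHom.comp_apply, hφ, hφ, ← map_pow, ← map_pow, ← pow_mul, ← sq, ← hF,
        FiniteField.pow_card]
    have h3 := hom_eval₂ P (algebraMap F K) (φ.comp φ) x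
    rw [h2, ← aeval_def, hx, map_zero, RingHom.comp_apply, hφ, hφ, ← pow_mul, ← sq] at h3
    rw [aeval_def]
    exact h3.symm
  induction i using Nat.twoStepInduction with
  | zero => simpa using h0
  | one =>
    rw [pow_one, _root_.zpow_neg, zpow_natCast]
    exact h1
  | more i ih _ =>
    have h2 := hcard _ ih
    have h3 : (a ^ ((-(q : ℤ)) ^ i)) ^ (q ^ 2) = a ^ ((-(q : ℤ)) ^ (i + 2)) := by
      rw [← zpow_natCast, ← _root_.zpow_mul, pow_add]
      congr 1
      push_cast
      ring
    rwa [h3] at h2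

end

/-- **The structure of the elements of `SU_{N+1}(q)` which commute with an element of order `r`.** -/
theorem exists_data (hF : Fintype.card F = q ^ 2) {r : ℕ} (hr : r.Prime) (hrF : (r : F) ≠ 0) (hN : 2 ≤ N)
    (ho : orderOf (-(q : ZMod r)) = N) {X Y : SU (N + 1) F q} (hX : orderOf X = r) (hXY : Commute X Y) :
    ∃ u : Fin (N + 1) → F, hermForm (N + 1) F q u u ≠ 0 ∧ ∃ l : F, l ^ (q + 1) = 1 ∧ mat Y *ᵥ u = l • u ∧
      ∃ a : AlgebraicClosure F, a ≠ 0 ∧
        (∀ P : F[X], aeval a P = 0 → aeval ((a ^ q)⁻¹) P = 0 → ∀ w : Fin (N + 1) → F,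
          hermForm (N + 1) F q w u = 0 → aeval (Matrix.toLin' (mat Y)) P w = 0) ∧
        (∀ c : F, c ^ (q + 1) = 1 → ∀ w : Fin (N + 1) → F, w ≠ 0 → hermForm (N + 1) F q w u = 0 →
          mat Y *ᵥ w = c • w → ∀ w' : Fin (N + 1) → F, hermForm (N + 1) F q w' u = 0 → mat Y *ᵥ w' = c • w') ∧
        ((∃ k : ℕ, X = Y ^ k) → ∀ P : F[X], P ≠ 0 → aeval a P = 0 → aeval ((a ^ q)⁻¹) P = 0 → N ≤ P.natDegree) := by
  set K := AlgebraicClosure F with hK
  have hq : 0 < q := Cfsg.Agent.LieClassical.HermBasic.q_pos hF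
  obtain ⟨z, v, hz, hE⟩ := exists_eig_sub K hF hr hrF X hX hN ho
  obtain ⟨mu, hmu⟩ := hE.exists_mu (mK_comm K hXY)
  have hz0 : z ≠ 0 := hz.ne_zero hr.ne_zero
  have hlam : ∀ i (hi : i < N), lam K q N z ⟨i, by omega⟩ = z ^ ((-(q : ℤ)) ^ i) := fun i hi => by
    simp only [lam, if_pos hi]
  have hlamL : lam K q N z (Fin.last N) = 1 := by simp [lam]
  set a : K := mu ⟨0, by omega⟩ with ha
  have ha0 : a ≠ 0 := (transpose_eigen K hF Y (hE.ne _) (hmu _)).1
  have hstep : ∀ (x : K) (i : ℕ), ((x ^ ((-(q : ℤ)) ^ i)) ^ q)⁻¹ = x ^ ((-(q : ℤ)) ^ (i + 1)) := by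
    intro x i
    rw [← zpow_natCast, ← _root_.zpow_mul, ← _root_.zpow_neg, pow_succ]
    congr 1
    ring
  have hmui : ∀ i (hi : i < N), mu ⟨i, by omega⟩ = a ^ ((-(q : ℤ)) ^ i) := by
    intro i
    induction i with
    | zero => intro hi; simp [ha]
    | succ i ih =>
      intro hi
      have h3 := mu_next K hF X Y hE hmu (i := ⟨i, by omega⟩) (j := ⟨i + 1, by omega⟩) (by
        rw [hlam _ hi, hlam _ (by omega), hstep])
      rw [h3, ih (by omega), hstep]
  have hcyc : a ^ ((-(q : ℤ)) ^ N) = a := by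
    obtain ⟨M, rfl⟩ : ∃ M, N = M + 1 := ⟨N - 1, by omega⟩
    have h3 := mu_next K hF X Y hE hmu (i := ⟨M, by omega⟩) (j := ⟨0, by omega⟩) (by
      rw [hlam _ (by omega), hlam _ (by omega), hstep, zpow_eq_iff K hz hr]
      push_cast
      rw [← ho, pow_orderOf_eq_one, pow_zero])
    rw [hmui 0 (by omega), hmui M (by omega), hstep, pow_zero, _root_.zpow_one] at h3
    exact h3.symm
  -- the fixed vector
  obtain ⟨u, hu0, hu⟩ : ∃ u : Fin (N + 1) → F, u ≠ 0 ∧ mat X *ᵥ u = u := by
    have h1 : (mat X - 1).det = 0 := by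
      apply (algebraMap F K).injective
      rw [map_zero, RingHom.map_det]
      apply Matrix.exists_mulVec_eq_zero_iff.1
      refine ⟨v (Fin.last N), hE.ne _, ?_⟩
      have h2 : (algebraMap F K).mapMatrix (mat X - 1) = mK K X - 1 := by
        rw [map_sub, map_one]
        rfl
      rw [h2, Matrix.sub_mulVec, hE.eq, hlamL, one_smul, Matrix.one_mulVec, sub_self]
    obtain ⟨u, hu0, hu⟩ := Matrix.exists_mulVec_eq_zero_iff.2 h1
    refine ⟨u, hu0, ?_⟩
    rw [Matrix.sub_mulVec, Matrix.one_mulVec, sub_eq_zero] at hu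
    exact hu
  obtain ⟨e, he⟩ := hE.exists_smul (w := up K u) (i := Fin.last N) (by
    rw [← up_mulVec, hu, hlamL, one_smul])
  have he0 : e ≠ 0 := by
    rintro rfl
    apply hu0
    apply up_injective K
    rw [he]
    funext i
    simp [up]
  obtain ⟨hd1, hd2⟩ := dual_eig K hF X hE (i := Fin.last N) (j := Fin.last N) (by
    rw [hlamL, one_pow, inv_one])
  set om : Fin (N + 1) → K := fun l => v (Fin.last N) l ^ q with hom
  have hherm : ∀ w : Fin (N + 1) → F, algebraMap F K (hermForm (N + 1) F q w u) = e ^ q * (om ⬝ᵥ up K w) := by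
    intro w
    rw [herm_def, map_sum, dotProduct, Finset.mul_sum]
    refine Finset.sum_congr rfl fun i _ => ?_
    have h1 : algebraMap F K (u i) = e * v (Fin.last N) i := congrFun he i
    rw [map_mul, map_pow, h1, mul_pow, hom]
    show algebraMap F K (w i) * _ = _ * (v (Fin.last N) i ^ q * algebraMap F K (w i))
    ring
  have hcoord : ∀ w : Fin (N + 1) → F, hermForm (N + 1) F q w u = 0 → hE.basis.repr (up K w) (Fin.last N) = 0 := by
    intro w hw
    have h1 := hherm w
    rw [hw, map_zero, ← hE.basis.sum_repr (up K w), dotProduct_sum, Finset.sum_eq_single (Fin.last N)] at h1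
    · rw [dotProduct_smul, hE.basis_apply, smul_eq_mul] at h1
      rcases mul_eq_zero.1 h1.symm with h2 | h2
      · exact absurd h2 (pow_ne_zero _ he0)
      · exact (mul_eq_zero.1 h2).resolve_right hd2
    · intro k _ hk
      rw [dotProduct_smul, hE.basis_apply, hd1 k hk, smul_zero]
    · intro h; exact absurd (Finset.mem_univ _) h
  have hexp : ∀ w : Fin (N + 1) → F, up K w = ∑ i, hE.basis.repr (up K w) i • v i := by
    intro w
    conv_lhs => rw [← hE.basis.sum_repr (up K w)]
    refine Finset.sum_congr rfl fun i _ => ?_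
    rw [hE.basis_apply]
  have huu : hermForm (N + 1) F q u u ≠ 0 := by
    intro h0
    have h1 := hcoord u h0
    rw [he, map_smul, ← hE.basis_apply, Module.Basis.repr_self, Finsupp.smul_apply, Finsupp.single_eq_same,
      smul_eq_mul, mul_one] at h1
    exact he0 h1
  -- the eigenvalue on `u`
  obtain ⟨l, hl⟩ : ∃ l : F, mat Y *ᵥ u = l • u := by
    obtain ⟨i, hi⟩ : ∃ i, u i ≠ 0 := by
      by_contra hcon
      push Not at hcon
      exact hu0 (funext hcon)
    have h1 : up K (mat Y *ᵥ u) = mu (Fin.last N) • up K u := by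
      rw [up_mulVec, he, Matrix.mulVec_smul, hmu, smul_smul, smul_smul, mul_comm]
    have h2 : mu (Fin.last N) = algebraMap F K ((mat Y *ᵥ u) i / u i) := by
      have h3 : algebraMap F K ((mat Y *ᵥ u) i) = mu (Fin.last N) * algebraMap F K (u i) := congrFun h1 i
      rw [map_div₀, h3, mul_div_cancel_right₀]
      rw [Ne, map_eq_zero]
      exact hi
    refine ⟨(mat Y *ᵥ u) i / u i, up_injective K ?_⟩
    rw [h1, up_smul, h2]
  have hl1 : l ^ (q + 1) = 1 := by
    have h1 := (Cfsg.Agent.LieClassical.HermBasic.mem_SU_iff (Y : Matrix.SpecialLinearGroup (Fin (N + 1)) F)).1 Y.2 u u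
    change hermForm (N + 1) F q (mat Y *ᵥ u) (mat Y *ᵥ u) = _ at h1
    rw [hl, herm_smul_left, herm_smul_right, ← mul_assoc, ← pow_succ'] at h1
    exact mul_right_cancel₀ huu (by rw [h1, one_mul])
  have hA1 : ∀ P : F[X], aeval a P = 0 → aeval ((a ^ q)⁻¹) P = 0 → ∀ w : Fin (N + 1) → F,
      hermForm (N + 1) F q w u = 0 → aeval (Matrix.toLin' (mat Y)) P w = 0 := by
    intro P h1 h2 w hw
    apply up_injective K
    rw [up_aeval K Y hmu P (hexp w)]
    have h0 : up K (0 : Fin (N + 1) → F) = 0 := by funext i; simp [up]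
    rw [h0]
    apply Finset.sum_eq_zero
    intro i _
    by_cases hi : (i : ℕ) < N
    · have h3 := hmui i hi
      have h4 := aeval_iter K hF h1 h2 (i : ℕ)
      have h5 : aeval (mu i) P = 0 := by rw [← h4, ← h3]
      rw [h5, zero_mul, zero_smul]
    · have h3 : i = Fin.last N := by
        apply Fin.ext
        rw [Fin.val_last]
        omega
      rw [h3, hcoord w hw, mul_zero, zero_smul]
  refine ⟨u, huu, l, hl1, hl, a, ha0, hA1, ?_, ?_⟩
  · intro c hc w hw0 hw hwc w' hw'
    have hcc : ∀ k : ℕ, (algebraMap F K c) ^ ((-(q : ℤ)) ^ k) = algebraMap F K c := by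
      have hc0 : c ≠ 0 := by
        rintro rfl
        rw [zero_pow (by omega)] at hc
        exact zero_ne_one hc
      intro k
      induction k with
      | zero => simp
      | succ k ih =>
        rw [← hstep, ih, ← map_pow, ← map_inv₀]
        congr 1
        apply inv_eq_of_mul_eq_one_right
        rw [← pow_succ]
        exact hc
    -- a coordinate
    have h1 : ∀ i, mu i * hE.basis.repr (up K w) i = algebraMap F K c * hE.basis.repr (up K w) i := by
      intro i
      have h2 : up K (mat Y *ᵥ w) = ∑ i, (mu i * hE.basis.repr (up K w) i) • v i := by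
        have h3 := up_aeval K Y hmu (Polynomial.X : F[X]) (hexp w)
        simp only [aeval_X] at h3
        exact h3
      have h4 : up K (mat Y *ᵥ w) = ∑ i, (algebraMap F K c * hE.basis.repr (up K w) i) • v i := by
        rw [hwc, up_smul]
        conv_lhs => rw [hexp w]
        rw [Finset.smul_sum]
        exact Finset.sum_congr rfl fun i _ => smul_smul _ _ _
      rw [h2] at h4
      have h5 := hE.linearIndependent
      rw [Fintype.linearIndependent_iff] at h5
      have h6 := h5 (fun i => mu i * hE.basis.repr (up K w) i - algebraMap F K c * hE.basis.repr (up K w) i) (by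
        simp only [sub_smul, Finset.sum_sub_distrib]
        rw [h4, sub_self]) i
      exact sub_eq_zero.1 h6
    obtain ⟨i, hi⟩ : ∃ i, hE.basis.repr (up K w) i ≠ 0 := by
      by_contra hcon
      push Not at hcon
      apply hw0
      apply up_injective K
      rw [hexp w]
      have h0 : up K (0 : Fin (N + 1) → F) = 0 := by funext i; simp [up]
      rw [h0]
      exact Finset.sum_eq_zero fun i _ => by rw [hcon i, zero_smul]
    have hiN : (i : ℕ) < N := by
      by_contra hcon
      have h3 : i = Fin.last N := by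
        apply Fin.ext
        rw [Fin.val_last]
        omega
      rw [h3] at hi
      exact hi (hcoord w hw)
    have hmi : a ^ ((-(q : ℤ)) ^ (i : ℕ)) = algebraMap F K c := by
      rw [← hmui i hiN]
      exact mul_right_cancel₀ hi (h1 i)
    have hac : a = algebraMap F K c := by
      rw [← hcyc, ← Nat.add_sub_cancel' hiN.le, pow_add, _root_.zpow_mul, hmi, hcc]
    have hac' : (a ^ q)⁻¹ = algebraMap F K c := by
      have h3 := hstep a 0
      rw [pow_zero, _root_.zpow_one] at h3
      rw [h3, hac, hcc]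
    have h7 := hA1 (Polynomial.X - C c) (by rw [map_sub, aeval_X, aeval_C, hac, sub_self])
      (by rw [map_sub, aeval_X, aeval_C, hac', sub_self]) w' hw'
    rw [map_sub, aeval_X, aeval_C, LinearMap.sub_apply, Matrix.toLin'_apply, Module.algebraMap_end_apply,
      sub_eq_zero] at h7
    exact h7
  · rintro ⟨k, hk⟩ P hP h1 h2
    have h3 : ∀ i, mu i ^ k = lam K q N z i := by
      intro i
      have h4 := Eig.pow_mulVec (hmu i) k
      rw [← mK_pow, ← hk, hE.eq] at h4
      have h5 : (lam K q N z i - mu i ^ k) • v i = 0 := by rw [sub_smul, h4, sub_self]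
      exact (sub_eq_zero.1 ((smul_eq_zero.1 h5).resolve_right (hE.ne i))).symm
    have hinj : Set.InjOn (fun i : ℕ => a ^ ((-(q : ℤ)) ^ i)) (Finset.range N : Set ℕ) := by
      intro i hi j hj hij
      rw [Finset.coe_range, Set.mem_Iio] at hi hj
      simp only at hij
      rw [← hmui i hi, ← hmui j hj] at hij
      have h6 : mu ⟨i, by omega⟩ ^ k = mu ⟨j, by omega⟩ ^ k := by rw [hij]
      rw [h3, h3] at h6
      exact Fin.mk.inj_iff.1 (hE.inj h6)
    classical
    have h4 : ((Finset.range N).image (fun i : ℕ => a ^ ((-(q : ℤ)) ^ i))).card = N := by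
      rw [Finset.card_image_of_injOn hinj, Finset.card_range]
    have h5 : (Finset.range N).image (fun i : ℕ => a ^ ((-(q : ℤ)) ^ i)) ⊆ (P.map (algebraMap F K)).roots.toFinset := by
      intro x hx
      rw [Finset.mem_image] at hx
      obtain ⟨i, -, rfl⟩ := hx
      rw [Multiset.mem_toFinset, mem_roots ((Polynomial.map_ne_zero_iff (algebraMap F K).injective).2 hP), IsRoot.def,
        eval_map_algebraMap]
      exact aeval_iter K hF h1 h2 i
    calc N = _ := h4.symm
      _ ≤ _ := Finset.card_le_card h5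
      _ ≤ _ := Multiset.toFinset_card_le _
      _ ≤ _ := card_roots' _
      _ ≤ _ := natDegree_map_le

end Cfsg.Agent.H446.CS
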