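import Cfsg.Agent.H446.CS.Eig
import Cfsg.Agent.H277.CS.Lin
import Cfsg.Agent.ClassicalGeometry.GUBasic

/-!
# Centralizers in `SU_{N+1}(q)` of elements commuting with an element of prime order `r`, `ord_r(-q) = N` (helper446)
-/

set_option autoImplicit false

namespace Cfsg.Agent.H446.CS

open Matrix Polynomial Module Cfsg Cfsg.Agent.H364.Regular Cfsg.Agent.H364.Unitary Cfsg.Agent.LieClassical.HermBasic
  Cfsg.Agent.H277.CS

universe u

variable {F : Type u} [Field F] [Fintype F] {n N q : ℕ}

/-- `c ↦ c ^ q` -/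
def sig (hF : Fintype.card F = q ^ 2) : F →+* F := ((conj hF : F ≃+* F) : F →+* F)

theorem sig_apply (hF : Fintype.card F = q ^ 2) (c : F) : sig hF c = c ^ q := rfl

/-- the hermitian form, semilinear in the first variable -/
def hB (hF : Fintype.card F = q ^ 2) (n : ℕ) : (Fin n → F) →ₛₗ[sig hF] (Fin n → F) →ₗ[F] F :=
  LinearMap.mk₂'ₛₗ (sig hF) (RingHom.id F) (fun u v => hermForm n F q v u)
    (fun u u' v => herm_add_right hF v u u')
    (fun c u v => by rw [herm_smul_right, sig_apply, smul_eq_mul])
    (fun u v v' => herm_add_left v v' u)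
    (fun c u v => by rw [herm_smul_left, RingHom.id_apply, smul_eq_mul])

theorem hB_apply (hF : Fintype.card F = q ^ 2) (u v : Fin n → F) : hB hF n u v = hermForm n F q v u := rfl

/-- the orthogonal space of `u` -/
def perp (hF : Fintype.card F = q ^ 2) (u : Fin n → F) : Submodule F (Fin n → F) := LinearMap.ker (hB hF n u)

theorem mem_perp (hF : Fintype.card F = q ^ 2) {u w : Fin n → F} : w ∈ perp hF u ↔ hermForm n F q w u = 0 := by
  rw [perp, LinearMap.mem_ker, hB_apply]

/-- the form on the orthogonal space -/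
def hBW (hF : Fintype.card F = q ^ 2) (u : Fin n → F) : perp hF u →ₛₗ[sig hF] perp hF u →ₗ[F] F :=
  LinearMap.mk₂'ₛₗ (sig hF) (RingHom.id F) (fun x y => hermForm n F q (y : Fin n → F) (x : Fin n → F))
    (fun x x' y => herm_add_right hF _ _ _)
    (fun c x y => by rw [Submodule.coe_smul, herm_smul_right, sig_apply, smul_eq_mul])
    (fun x y y' => herm_add_left _ _ _)
    (fun c x y => by rw [Submodule.coe_smul, herm_smul_left, RingHom.id_apply, smul_eq_mul])

theorem hBW_apply (hF : Fintype.card F = q ^ 2) (u : Fin n → F) (x y : perp hF u) :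
    hBW hF u x y = hermForm n F q (y : Fin n → F) (x : Fin n → F) := rfl

theorem hBW_symm (hF : Fintype.card F = q ^ 2) (u : Fin n → F) (x y : perp hF u) :
    hBW hF u y x = sig hF (hBW hF u x y) := by
  rw [hBW_apply, hBW_apply, sig_apply, herm_swap hF]

theorem exists_dec (hF : Fintype.card F = q ^ 2) {u : Fin n → F} (hu : hermForm n F q u u ≠ 0) (x : Fin n → F) :
    ∃ w ∈ perp hF u, ∃ c : F, x = w + c • u := by
  refine ⟨x - (hermForm n F q x u / hermForm n F q u u) • u, ?_, hermForm n F q x u / hermForm n F q u u, by abel⟩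
  rw [mem_perp, herm_sub_left, herm_smul_left, div_mul_cancel₀ _ hu, sub_self]

theorem hBW_nd (hF : Fintype.card F = q ^ 2) {u : Fin n → F} (hu : hermForm n F q u u ≠ 0) (x : perp hF u)
    (h : ∀ y, hBW hF u x y = 0) : x = 0 := by
  apply Subtype.ext
  apply herm_nondeg hF
  intro y
  obtain ⟨w, hw, c, rfl⟩ := exists_dec hF hu y
  have h1 := h ⟨w, hw⟩
  rw [hBW_apply] at h1
  rw [herm_add_right hF, herm_eq_zero_swap hF h1, herm_smul_right, (mem_perp hF).1 x.2, mul_zero, add_zero]

theorem isCompl_perp (hF : Fintype.card F = q ^ 2) {u : Fin n → F} (hu : hermForm n F q u u ≠ 0) :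
    IsCompl (perp hF u) (Submodule.span F {u}) := by
  constructor
  · rw [Submodule.disjoint_def]
    intro x hx hx'
    obtain ⟨c, rfl⟩ := Submodule.mem_span_singleton.1 hx'
    rw [mem_perp, herm_smul_left] at hx
    rw [(mul_eq_zero.1 hx).resolve_right hu, zero_smul]
  · rw [codisjoint_iff, eq_top_iff]
    intro x _
    obtain ⟨w, hw, c, rfl⟩ := exists_dec hF hu x
    exact Submodule.add_mem_sup hw (Submodule.smul_mem _ _ (Submodule.mem_span_singleton_self u))

theorem ne_zero_of_herm (_hF : Fintype.card F = q ^ 2) {u : Fin n → F} (hu : hermForm n F q u u ≠ 0) : u ≠ 0 := by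
  rintro rfl
  exact hu (herm_zero_left _)

theorem finrank_perp (hF : Fintype.card F = q ^ 2) {u : Fin (N + 1) → F} (hu : hermForm (N + 1) F q u u ≠ 0) :
    finrank F (perp hF u) = N := by
  have h1 := Submodule.finrank_add_eq_of_isCompl (isCompl_perp hF hu)
  rw [finrank_span_singleton (ne_zero_of_herm hF hu), finrank_fin_fun] at h1
  omega

/-- the isometries `B ⊕ c` -/
theorem glue_isom (hF : Fintype.card F = q ^ 2) {u : Fin n → F} (hu : hermForm n F q u u ≠ 0)
    {B : Module.End F (perp hF u)}
    (hB : ∀ x y : perp hF u, hermForm n F q (B x : Fin n → F) (B y : Fin n → F) = hermForm n F q (x : Fin n → F) y)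
    {c : F} (hc : c ^ (q + 1) = 1) (x y : Fin n → F) :
    hermForm n F q (glue (isCompl_perp hF hu) B c x) (glue (isCompl_perp hF hu) B c y) = hermForm n F q x y := by
  obtain ⟨w, hw, e, rfl⟩ := exists_dec hF hu x
  obtain ⟨w', hw', e', rfl⟩ := exists_dec hF hu y
  have h1 : ∀ (w : Fin n → F) (hw : w ∈ perp hF u) (e : F), glue (isCompl_perp hF hu) B c (w + e • u) =
      (B ⟨w, hw⟩ : Fin n → F) + (e * c) • u := by
    intro w hw e
    rw [map_add, map_smul]
    have h2 := glue_left (isCompl_perp hF hu) B c ⟨w, hw⟩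
    have h3 := glue_right (isCompl_perp hF hu) B c ⟨u, Submodule.mem_span_singleton_self u⟩
    simp only at h2 h3
    rw [h2, h3, smul_smul]
  have h4 : ∀ (w : perp hF u) (e : F), hermForm n F q (e • u) (w : Fin n → F) = 0 := by
    intro w e
    rw [herm_smul_left, herm_eq_zero_swap hF ((mem_perp hF).1 w.2), mul_zero]
  have h5 : ∀ (w : perp hF u) (e : F), hermForm n F q (w : Fin n → F) (e • u) = 0 := by
    intro w e
    rw [herm_smul_right, (mem_perp hF).1 w.2, mul_zero]
  rw [h1 w hw, h1 w' hw', herm_add_left, herm_add_right hF, herm_add_right hF, h4, h5, hB, herm_add_left,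
    herm_add_right hF, herm_add_right hF, h4 ⟨w', hw'⟩, h5 ⟨w, hw⟩, herm_smul_left, herm_smul_right, herm_smul_left,
    herm_smul_right]
  have h6 : e * c * ((e' * c) ^ q * hermForm n F q u u) = c ^ (q + 1) * (e * (e' ^ q * hermForm n F q u u)) := by ring
  rw [h6, hc, one_mul]

/-- `Y u = l u`, `h(u, u) ≠ 0` and `Y` has no eigenvector with eigenvalue `l` orthogonal to `u` -/
structure Dat (hF : Fintype.card F = q ^ 2) (Y : SU n F q) (u : Fin n → F) (l : F) : Prop where
  huu : hermForm n F q u u ≠ 0
  hl1 : l ^ (q + 1) = 1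
  hl : mat Y *ᵥ u = l • u
  hw : ∀ w ∈ perp hF u, mat Y *ᵥ w = l • w → w = 0

omit [Fintype F] in
theorem herm_mat (g : SU n F q) (x y : Fin n → F) : hermForm n F q (mat g *ᵥ x) (mat g *ᵥ y) = hermForm n F q x y :=
  (Cfsg.Agent.LieClassical.HermBasic.mem_SU_iff (g : Matrix.SpecialLinearGroup (Fin n) F)).1 g.2 x y

theorem mat_perp (hF : Fintype.card F = q ^ 2) {g : SU n F q} {u : Fin n → F} {c : F} (hc : c ≠ 0)
    (h : mat g *ᵥ u = c • u) (w : Fin n → F) (hw : w ∈ perp hF u) : toLin' (mat g) w ∈ perp hF u := by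
  rw [mem_perp, toLin'_apply]
  have h1 := herm_mat g w u
  rw [h, herm_smul_right, (mem_perp hF).1 hw] at h1
  exact (mul_eq_zero.1 h1).resolve_left (pow_ne_zero _ hc)

omit [Fintype F] in
theorem mat_inj (g : SU n F q) : Function.Injective (toLin' (mat g)) := by
  intro x y hxy
  rw [toLin'_apply, toLin'_apply] at hxy
  have h1 := congrArg (fun z => mat g⁻¹ *ᵥ z) hxy
  simp only [Matrix.mulVec_mulVec] at h1
  rwa [← mat_mul, inv_mul_cancel, mat_one, Matrix.one_mulVec, Matrix.one_mulVec] at h1

/-- the restriction to the orthogonal space -/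
noncomputable def res (hF : Fintype.card F = q ^ 2) (g : SU n F q) (u : Fin n → F)
    (h : ∀ w ∈ perp hF u, toLin' (mat g) w ∈ perp hF u) : perp hF u ≃ₗ[F] perp hF u :=
  LinearEquiv.ofInjectiveEndo ((toLin' (mat g)).restrict h) (by
    intro x y hxy
    exact Subtype.ext (mat_inj g (congrArg Subtype.val hxy)))

theorem res_apply (hF : Fintype.card F = q ^ 2) (g : SU n F q) (u : Fin n → F)
    (h : ∀ w ∈ perp hF u, toLin' (mat g) w ∈ perp hF u) (x : perp hF u) :
    ((res hF g u h x : perp hF u) : Fin n → F) = mat g *ᵥ (x : Fin n → F) := rfl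

theorem res_isom (hF : Fintype.card F = q ^ 2) (g : SU n F q) (u : Fin n → F)
    (h : ∀ w ∈ perp hF u, toLin' (mat g) w ∈ perp hF u) (x y : perp hF u) :
    hBW hF u (res hF g u h x) (res hF g u h y) = hBW hF u x y := by
  rw [hBW_apply, hBW_apply, res_apply, res_apply, herm_mat]

namespace Dat

variable {hF : Fintype.card F = q ^ 2} {Y : SU n F q} {u : Fin n → F} {l : F} (D : Dat hF Y u l)

include D

theorem l0 : l ≠ 0 := by
  rintro rfl
  have := D.hl1
  rw [zero_pow (by omega)] at this
  exact zero_ne_one this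

theorem hY : ∀ w ∈ perp hF u, toLin' (mat Y) w ∈ perp hF u := mat_perp hF D.l0 D.hl

/-- The eigenvectors for `l`. -/
theorem exists_smul {x : Fin n → F} (hx : mat Y *ᵥ x = l • x) : ∃ c : F, x = c • u := by
  obtain ⟨w, hw, c, rfl⟩ := exists_dec hF D.huu x
  refine ⟨c, ?_⟩
  rw [Matrix.mulVec_add, Matrix.mulVec_smul, D.hl, smul_add, smul_comm c l] at hx
  rw [D.hw w hw (add_right_cancel hx), zero_add]

theorem exists_nu {g : SU n F q} (hg : Commute g Y) : ∃ c : F, c ≠ 0 ∧ mat g *ᵥ u = c • u := by
  obtain ⟨c, hc⟩ := D.exists_smul (x := mat g *ᵥ u) (by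
    rw [Matrix.mulVec_mulVec, ← mat_mul, ← hg.eq, mat_mul, ← Matrix.mulVec_mulVec, D.hl, Matrix.mulVec_smul])
  refine ⟨c, ?_, hc⟩
  rintro rfl
  apply ne_zero_of_herm hF D.huu
  apply mat_inj g
  rw [toLin'_apply, hc, zero_smul, map_zero]

theorem hg {g : SU n F q} (hg : Commute g Y) : ∀ w ∈ perp hF u, toLin' (mat g) w ∈ perp hF u := by
  obtain ⟨c, hc0, hc⟩ := D.exists_nu hg
  exact mat_perp hF hc0 hc

/-- **The centralizer of `Y` in `SU` is the group of the isometries of the orthogonal space of `u` commuting with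
`Y`.** -/
theorem card_cent : Nat.card (Subgroup.centralizer ({Y} : Set (SU n F q))) =
    Nat.card {g : perp hF u ≃ₗ[F] perp hF u // (∀ x y, hBW hF u (g x) (g y) = hBW hF u x y) ∧
      ∀ x, g (res hF Y u D.hY x) = res hF Y u D.hY (g x)} := by
  have hu0 := ne_zero_of_herm hF D.huu
  have hcm : ∀ g : Subgroup.centralizer ({Y} : Set (SU n F q)), Commute (g : SU n F q) Y := fun g =>
    Subgroup.mem_centralizer_singleton_iff.1 g.2
  have h1 : finrank F (Submodule.span F {u}) = 1 := finrank_span_singleton hu0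
  have hglue : ∀ (g : SU n F q) (h : ∀ w ∈ perp hF u, toLin' (mat g) w ∈ perp hF u) (c : F),
      mat g *ᵥ u = c • u → toLin' (mat g) = glue (isCompl_perp hF D.huu) ((toLin' (mat g)).restrict h) c := by
    intro g h c hc
    apply ext_of (isCompl_perp hF D.huu)
    · intro w
      rw [glue_left]
      rfl
    · rintro ⟨x, hx⟩
      obtain ⟨e, rfl⟩ := Submodule.mem_span_singleton.1 hx
      rw [glue_right]
      show toLin' (mat g) (e • u) = c • (e • u)
      rw [toLin'_apply, Matrix.mulVec_smul, hc, smul_comm]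
  refine Nat.card_congr (Equiv.ofBijective (fun g => ⟨res hF g u (D.hg (hcm g)), res_isom hF _ _ _, fun x => ?_⟩)
    ⟨?_, ?_⟩)
  · apply Subtype.ext
    rw [res_apply, res_apply, res_apply, res_apply, Matrix.mulVec_mulVec, Matrix.mulVec_mulVec, ← mat_mul, ← mat_mul,
      (hcm g).eq]
  · intro g g' hgg
    have h2 := congrArg Subtype.val hgg
    simp only at h2
    obtain ⟨c, hc0, hc⟩ := D.exists_nu (hcm g)
    obtain ⟨c', hc0', hc'⟩ := D.exists_nu (hcm g')
    have e1 := hglue g (D.hg (hcm g)) c hc
    have e2 := hglue g' (D.hg (hcm g')) c' hc'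
    have e3 : (toLin' (mat (g : SU n F q))).restrict (D.hg (hcm g)) =
        (toLin' (mat (g' : SU n F q))).restrict (D.hg (hcm g')) := by
      apply LinearMap.ext
      intro x
      exact LinearEquiv.congr_fun h2 x
    have hd : ∀ (g : SU n F q), LinearMap.det (toLin' (mat g)) = 1 := fun g => by
      rw [LinearMap.det_toLin', mat_det]
    have e4 : c = c' := by
      have d1 := hd g
      have d2 := hd g'
      rw [e1, det_glue _ h1] at d1
      rw [e2, det_glue _ h1, ← e3] at d2
      have hne : LinearMap.det ((toLin' (mat (g : SU n F q))).restrict (D.hg (hcm g))) ≠ 0 := by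
        intro h0
        rw [h0, zero_mul] at d1
        exact zero_ne_one d1
      exact mul_left_cancel₀ hne (d1.trans d2.symm)
    apply Subtype.ext
    apply mat_injective
    apply Matrix.toLin'.injective
    rw [e1, e2, e3, e4]
  · rintro ⟨s, hs1, hs2⟩
    have hs1' : ∀ x y : perp hF u, hermForm n F q ((s : Module.End F (perp hF u)) x : Fin n → F)
        ((s : Module.End F (perp hF u)) y : Fin n → F) = hermForm n F q (x : Fin n → F) y := by
      intro x y
      exact hs1 y x
    -- the determinant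
    have hdet : (LinearMap.det (s : Module.End F (perp hF u))) ^ (q + 1) = 1 := by
      have h2 := Cfsg.Agent.ClassicalGeometry.GUBasic.det_pow hF
        (A := LinearMap.toMatrix' (glue (isCompl_perp hF D.huu) (s : Module.End F (perp hF u)) 1)) (by
          intro x y
          rw [← toLin'_apply, ← toLin'_apply, toLin'_toMatrix']
          exact glue_isom hF D.huu hs1' (one_pow _) x y)
      rw [LinearMap.det_toMatrix', det_glue _ h1, mul_one] at h2
      exact h2
    set c : F := (LinearMap.det (s : Module.End F (perp hF u)))⁻¹ with hc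
    have hc1 : c ^ (q + 1) = 1 := by rw [hc, inv_pow, hdet, inv_one]
    set b := glue (isCompl_perp hF D.huu) (s : Module.End F (perp hF u)) c with hb
    have hbd : (LinearMap.toMatrix' b).det = 1 := by
      rw [LinearMap.det_toMatrix', hb, det_glue _ h1, hc, mul_inv_cancel₀]
      intro h0
      rw [h0, zero_pow (by omega)] at hdet
      exact zero_ne_one hdet
    let g0 : Matrix.SpecialLinearGroup (Fin n) F := ⟨LinearMap.toMatrix' b, hbd⟩
    let g : SU n F q := ⟨g0, (Cfsg.Agent.LieClassical.HermBasic.mem_SU_iff g0).2 <| by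
      intro x y
      change hermForm n F q (LinearMap.toMatrix' b *ᵥ x) (LinearMap.toMatrix' b *ᵥ y) = _
      rw [← toLin'_apply, ← toLin'_apply, toLin'_toMatrix']
      exact glue_isom hF D.huu hs1' hc1 x y⟩
    have hgb : toLin' (mat g) = b := toLin'_toMatrix' b
    have hgY : Commute g Y := by
      apply mat_injective
      apply Matrix.toLin'.injective
      rw [mat_mul, mat_mul, Matrix.toLin'_mul, Matrix.toLin'_mul, hgb]
      apply ext_of (isCompl_perp hF D.huu)
      · intro x
        have h3 := hs2 x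
        have h4 : toLin' (mat Y) (x : Fin n → F) = (res hF Y u D.hY x : perp hF u) := rfl
        rw [LinearMap.comp_apply, LinearMap.comp_apply, h4, hb, glue_left, glue_left]
        have h5 := congrArg Subtype.val h3
        exact h5
      · rintro ⟨x, hx⟩
        obtain ⟨e, rfl⟩ := Submodule.mem_span_singleton.1 hx
        have h4 : ∀ e : F, b (e • u) = c • (e • u) := fun e =>
          glue_right (isCompl_perp hF D.huu) (s : Module.End F (perp hF u)) c
            ⟨e • u, Submodule.smul_mem _ _ (Submodule.mem_span_singleton_self u)⟩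
        have h5 : ∀ e : F, toLin' (mat Y) (e • u) = l • (e • u) := fun e => by
          rw [toLin'_apply, Matrix.mulVec_smul, D.hl, smul_comm]
        calc b (toLin' (mat Y) (e • u)) = b (l • (e • u)) := by rw [h5]
          _ = l • b (e • u) := map_smul b l (e • u)
          _ = l • c • (e • u) := by rw [h4]
          _ = c • l • (e • u) := smul_comm _ _ _
          _ = c • toLin' (mat Y) (e • u) := by rw [h5]
          _ = toLin' (mat Y) (c • (e • u)) := (map_smul _ _ _).symm
          _ = toLin' (mat Y) (b (e • u)) := by rw [h4]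
    refine ⟨⟨g, Subgroup.mem_centralizer_singleton_iff.2 hgY⟩, Subtype.ext ?_⟩
    apply LinearEquiv.ext
    intro x
    apply Subtype.ext
    rw [res_apply]
    show mat g *ᵥ (x : Fin n → F) = _
    rw [← toLin'_apply, hgb, hb, glue_left]
    rfl

end Dat

end Cfsg.Agent.H446.CS
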