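import Cfsg.Agent.H446.CS.Cent
import Cfsg.Agent.S0279

/-!
# Centralizers in `PSU_n(q)` of elements commuting with an element of prime order `r`, `ord_r(-q) = n - 1` (helper446)
-/

set_option autoImplicit false

namespace Cfsg.Agent.H446.CS

open Matrix Polynomial Module Cfsg Cfsg.Agent.H364.Regular Cfsg.Agent.H364.Unitary Cfsg.Agent.LieClassical.HermBasic
  Cfsg.Agent.H277.CS

universe u

variable {F : Type u} [Field F] [Fintype F] {n N q : ℕ}

/-- `Y` commutes with a conjugate `c Y c⁻¹ = z Y` only if `z = 1`. -/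
theorem scalar_eq_one {hF : Fintype.card F = q ^ 2} {Y : SU (N + 1) F q} {u : Fin (N + 1) → F} {l : F}
    (D : Dat hF Y u l) (hN : 2 ≤ N)
    (hA : ∀ c : F, c ^ (q + 1) = 1 → ∀ w : Fin (N + 1) → F, w ≠ 0 → hermForm (N + 1) F q w u = 0 →
          mat Y *ᵥ w = c • w → ∀ w' : Fin (N + 1) → F, hermForm (N + 1) F q w' u = 0 → mat Y *ᵥ w' = c • w')
    {c : SU (N + 1) F q} {ζ : F} (hζ : ζ ^ (q + 1) = 1) (h : ∀ v, mat Y *ᵥ (mat c *ᵥ v) = ζ • (mat c *ᵥ (mat Y *ᵥ v))) :
    ζ = 1 := by
  by_contra hz1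
  have hu0 := ne_zero_of_herm hF D.huu
  have hζ0 : ζ ≠ 0 := by
    rintro rfl
    rw [zero_pow (by omega)] at hζ
    exact zero_ne_one hζ
  -- eigenvectors
  have heig : ∀ (v : Fin (N + 1) → F) (m : F), mat Y *ᵥ v = m • v → ∃ w ∈ perp hF u, ∃ e : F, v = w + e • u ∧
      mat Y *ᵥ w = m • w ∧ (e = 0 ∨ m = l) := by
    intro v m hv
    obtain ⟨w, hw, e, rfl⟩ := exists_dec hF D.huu v
    have h1 : mat Y *ᵥ w - m • w = (e * (m - l)) • u := by
      rw [Matrix.mulVec_add, Matrix.mulVec_smul, D.hl, smul_add] at hv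
      have h2 : mat Y *ᵥ w = m • w + m • e • u - e • l • u := by
        rw [← hv, add_sub_cancel_right]
      rw [h2, smul_smul, smul_smul, mul_sub, sub_smul, mul_comm m e]
      abel
    have h2 : mat Y *ᵥ w - m • w ∈ perp hF u := by
      have h3 := D.hY w hw
      rw [toLin'_apply] at h3
      exact Submodule.sub_mem _ h3 (Submodule.smul_mem _ _ hw)
    rw [h1, mem_perp, herm_smul_left] at h2
    have h3 := (mul_eq_zero.1 h2).resolve_right D.huu
    rw [h3, zero_smul, sub_eq_zero] at h1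
    refine ⟨w, hw, e, rfl, h1, ?_⟩
    rcases mul_eq_zero.1 h3 with h4 | h4
    · exact Or.inl h4
    · exact Or.inr (sub_eq_zero.1 h4)
  have hκ : (ζ * l) ^ (q + 1) = 1 := by rw [mul_pow, hζ, D.hl1, one_mul]
  have hl' : ζ * l ≠ l := by
    intro h2
    apply hz1
    exact mul_right_cancel₀ D.l0 (by rw [h2, one_mul])
  obtain ⟨w, hw, e, hwe, hYw, he⟩ := heig (mat c *ᵥ u) (ζ * l) (by
    rw [h, D.hl, Matrix.mulVec_smul, smul_smul])
  have he0 := he.resolve_right hl'
  have hw0 : w ≠ 0 := by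
    rintro rfl
    rw [he0, zero_smul, add_zero] at hwe
    apply hu0
    apply mat_inj c
    rw [toLin'_apply, hwe, map_zero]
  have hall := hA (ζ * l) hκ w hw0 ((mem_perp hF).1 hw) hYw
  have hbR : ∀ x ∈ perp hF u, toLin' (mat c) x ∈ Submodule.span F {u} := by
    intro x hx
    obtain ⟨w1, hw1, e1, hwe1, hYw1, -⟩ := heig (mat c *ᵥ x) (ζ * (ζ * l)) (by
      rw [h, hall x ((mem_perp hF).1 hx), Matrix.mulVec_smul, smul_smul])
    have hw10 : w1 = 0 := by
      by_contra hne
      rw [hall w1 ((mem_perp hF).1 hw1)] at hYw1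
      have h2 := smul_left_injective F hne hYw1
      apply hl'
      exact (mul_left_cancel₀ hζ0 h2).symm
    rw [toLin'_apply, hwe1, hw10, zero_add]
    exact Submodule.smul_mem _ _ (Submodule.mem_span_singleton_self u)
  have h2 : finrank F (perp hF u) ≤ finrank F (Submodule.span F {u}) := by
    apply LinearMap.finrank_le_finrank_of_injective (f := ((toLin' (mat c)).restrict hbR))
    intro x y hxy
    apply Subtype.ext
    apply mat_inj c
    exact congrArg Subtype.val hxy
  rw [finrank_perp hF D.huu, finrank_span_singleton hu0] at h2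
  omega

theorem center_pow (hF : Fintype.card F = q ^ 2) (hn : 3 ≤ n) {z : SU n F q} (hz : z ∈ Subgroup.center (SU n F q)) :
    z ^ (q + 1) = 1 := by
  obtain ⟨c, hcn, hcq, hc⟩ := (Cfsg.Agent.LieClassical.SUBasic.mem_center_SU_iff hF hn _).1 hz
  rw [hc]
  apply mat_injective
  rw [mat_pow, mat_one]
  change (Matrix.diagonal fun _ => c) ^ (q + 1) = 1
  rw [Matrix.diagonal_pow]
  have : (fun _ : Fin n => c) ^ (q + 1) = 1 := by funext i; exact hcq
  rw [this]
  exact Matrix.diagonal_one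

theorem center_smul (hF : Fintype.card F = q ^ 2) (hn : 3 ≤ n) {z : SU n F q} (hz : z ∈ Subgroup.center (SU n F q)) :
    ∃ ζ : F, ζ ^ (q + 1) = 1 ∧ ∀ v, mat z *ᵥ v = ζ • v := by
  obtain ⟨c, hcn, hcq, hc⟩ := (Cfsg.Agent.LieClassical.SUBasic.mem_center_SU_iff hF hn _).1 hz
  refine ⟨c, hcq, fun v => ?_⟩
  rw [hc]
  change (Matrix.diagonal fun _ => c) *ᵥ v = _
  funext i
  rw [Matrix.mulVec_diagonal]
  rfl

theorem mem_center_of (z : SU n F q) {ζ : F} (h : ∀ v, mat z *ᵥ v = ζ • v) : z ∈ Subgroup.center (SU n F q) := by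
  rw [Subgroup.mem_center_iff]
  intro g
  apply mat_injective
  apply Matrix.toLin'.injective
  apply LinearMap.ext
  intro v
  rw [toLin'_apply, toLin'_apply, mat_mul, mat_mul, ← Matrix.mulVec_mulVec, ← Matrix.mulVec_mulVec, h, h,
    Matrix.mulVec_smul]

/-- **The list of centralizer orders.** -/
theorem exists_card (hF : Fintype.card F = q ^ 2) {r : ℕ} (hr : r.Prime) (hrF : (r : F) ≠ 0) (hN : 2 ≤ N)
    (ho : orderOf (-(q : ZMod r)) = N) {x : PSU (N + 1) F q} (hx : x ≠ 1)
    (hdx : r ∣ Nat.card (Subgroup.centralizer ({x} : Set (PSU (N + 1) F q)))) :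
    ∃ k m : ℕ, k * m = N ∧ 0 < k ∧ (orderOf x = r → m = 1) ∧
      Nat.card (Subgroup.centralizer ({x} : Set (PSU (N + 1) F q))) * Nat.gcd (N + 1) (q + 1) = cc q m k := by
  have hq2 : 2 ≤ q := Cfsg.Agent.LieClassical.HermBasic.two_le hF
  have hfin : Finite (SU (N + 1) F q) := inferInstance
  have hfin' : Finite (PSU (N + 1) F q) := Quotient.finite _
  have := Fact.mk hr
  have hrq : ¬ r ∣ q + 1 := by
    intro h
    have h3 : ((q + 1 : ℕ) : ZMod r) = 0 := (ZMod.natCast_eq_zero_iff _ _).2 h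
    push_cast at h3
    have h4 : (-(q : ZMod r)) = 1 := by
      rw [neg_eq_iff_add_eq_zero, ← h3]
    rw [h4, orderOf_one] at ho
    omega
  obtain ⟨g, rfl⟩ := QuotientGroup.mk_surjective x
  obtain ⟨⟨y0, hy0⟩, hy0s⟩ := exists_prime_orderOf_dvd_card' r hdx
  rw [Subgroup.orderOf_mk] at hy0s
  obtain ⟨y1, rfl⟩ := QuotientGroup.mk_surjective y0
  -- if `x` has order `r`, take `y0 = x`
  obtain ⟨y1, hy0, hy0s, hyx⟩ : ∃ y1 : SU (N + 1) F q, (QuotientGroup.mk y1 : PSU (N + 1) F q) ∈
      Subgroup.centralizer ({(QuotientGroup.mk g : PSU (N + 1) F q)} : Set (PSU (N + 1) F q)) ∧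
      orderOf (QuotientGroup.mk y1 : PSU (N + 1) F q) = r ∧
      (orderOf (QuotientGroup.mk g : PSU (N + 1) F q) = r → y1 = g) := by
    by_cases h : orderOf (QuotientGroup.mk g : PSU (N + 1) F q) = r
    · exact ⟨g, Subgroup.mem_centralizer_singleton_iff.2 rfl, h, fun _ => rfl⟩
    · exact ⟨y1, hy0, hy0s, fun h' => absurd h' h⟩
  have hz1 : y1 ^ r ∈ Subgroup.center (SU (N + 1) F q) := by
    rw [← QuotientGroup.eq_one_iff, QuotientGroup.mk_pow, ← hy0s, pow_orderOf_eq_one]
  set y := y1 ^ (q + 1) with hy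
  have hk1 : y ^ r = 1 := by
    rw [hy, ← pow_mul, mul_comm, pow_mul]
    exact center_pow hF (by omega) hz1
  have hk2 : y ≠ 1 := by
    intro h
    apply hrq
    rw [← hy0s]
    apply orderOf_dvd_of_pow_eq_one
    rw [← QuotientGroup.mk_pow, ← hy, h]
    rfl
  have hyo : orderOf y = r := orderOf_eq_prime hk1 hk2
  have hcm : Commute g y := by
    have hcy : Commute (QuotientGroup.mk g : PSU (N + 1) F q) (QuotientGroup.mk y) := by
      rw [hy, QuotientGroup.mk_pow]
      exact (show Commute (QuotientGroup.mk g : PSU (N + 1) F q) (QuotientGroup.mk y1) from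
        (Subgroup.mem_centralizer_singleton_iff.1 hy0).symm).pow_right _
    have hz : g * y * g⁻¹ * y⁻¹ ∈ Subgroup.center (SU (N + 1) F q) := by
      rw [← QuotientGroup.eq_one_iff]
      show (QuotientGroup.mk g : PSU (N + 1) F q) * QuotientGroup.mk y * (QuotientGroup.mk g)⁻¹ * (QuotientGroup.mk y)⁻¹ = 1
      rw [hcy.eq, mul_inv_cancel_right, mul_inv_cancel]
    set z := g * y * g⁻¹ * y⁻¹ with hzd
    have h1 : g * y * g⁻¹ = z * y := by rw [hzd]; group
    have h2 : (g * y * g⁻¹) ^ r = 1 := by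
      rw [conj_pow, hk1, mul_one, mul_inv_cancel]
    rw [h1, (show Commute z y from (Subgroup.mem_center_iff.1 hz y).symm).mul_pow, hk1, mul_one] at h2
    have h3 := center_pow hF (by omega) hz
    have h4 : orderOf z ∣ Nat.gcd r (q + 1) :=
      Nat.dvd_gcd (orderOf_dvd_of_pow_eq_one h2) (orderOf_dvd_of_pow_eq_one h3)
    rw [(Nat.Prime.coprime_iff_not_dvd hr).2 hrq, Nat.dvd_one, orderOf_eq_one_iff] at h4
    rw [h4, one_mul, mul_inv_eq_iff_eq_mul] at h1
    exact h1
  obtain ⟨u, huu, l, hl1, hl, a, ha0, hA1, hA2, hA3⟩ := exists_data hF hr hrF hN ho hyo hcm.symm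
  have D : Dat hF g u l := by
    refine ⟨huu, hl1, hl, fun w hw hgw => ?_⟩
    by_contra hw0
    have hall := hA2 l hl1 w hw0 ((mem_perp hF).1 hw) hgw
    apply hx
    rw [QuotientGroup.eq_one_iff]
    apply mem_center_of g (ζ := l)
    intro v
    obtain ⟨w, hw, e, rfl⟩ := exists_dec hF huu v
    rw [Matrix.mulVec_add, Matrix.mulVec_smul, hl, hall w ((mem_perp hF).1 hw), smul_add, smul_comm]
  -- the classification
  have hnt : Nontrivial (perp hF u) :=
    Module.nontrivial_of_finrank_pos (R := F) (by rw [finrank_perp hF huu]; omega)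
  obtain ⟨m, k, hk0, hkm, hcard, P, hP0, hPk, hP1, hP2⟩ := classify hF (sig_apply hF) (hBW hF u) (hBW_symm hF u)
    (hBW_nd hF huu) (res hF g u D.hY) (res_isom hF g u D.hY) (Algebra.IsIntegral.isIntegral (R := F) a) ha0 (by
      intro P h1 h2
      apply LinearMap.ext
      intro w
      apply Subtype.ext
      have h3 := Cfsg.Agent.H326.CGU.aeval_restrict (W := toLin' (mat g)) D.hY P w
      have h4 : ((res hF g u D.hY : perp hF u ≃ₗ[F] perp hF u) : perp hF u →ₗ[F] perp hF u) =
        (toLin' (mat g)).restrict D.hY := rfl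
      rw [h4, h3, hA1 P h1 h2 w ((mem_perp hF).1 w.2)]
      rfl)
  rw [finrank_perp hF huu] at hkm
  refine ⟨k, m, hkm, hk0, ?_, ?_⟩
  · intro hxr
    have hyg := hyx hxr
    have h1 := hA3 ⟨q + 1, by rw [hy, hyg]⟩ P hP0 hP1 hP2
    have hk' : k ∣ N := ⟨m, hkm.symm⟩
    have hkn : k = N := le_antisymm (Nat.le_of_dvd (by omega) hk') (h1.trans hPk)
    rw [hkn] at hkm
    exact Nat.eq_of_mul_eq_mul_left (by omega : 0 < N) (by rw [hkm, mul_one])
  · rw [← hcard, ← D.card_cent]
    -- indices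
    have hcomap : (Subgroup.centralizer ({(QuotientGroup.mk g : PSU (N + 1) F q)} : Set (PSU (N + 1) F q))).comap
        (QuotientGroup.mk' (Subgroup.center (SU (N + 1) F q))) =
        Subgroup.centralizer ({g} : Set (SU (N + 1) F q)) := by
      ext c
      rw [Subgroup.mem_comap, Subgroup.mem_centralizer_singleton_iff, Subgroup.mem_centralizer_singleton_iff,
        QuotientGroup.mk'_apply]
      constructor
      · intro hcg
        have hz : g * c * (c * g)⁻¹ ∈ Subgroup.center (SU (N + 1) F q) := by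
          rw [← QuotientGroup.eq_one_iff]
          show (QuotientGroup.mk g : PSU (N + 1) F q) * QuotientGroup.mk c * (QuotientGroup.mk c * QuotientGroup.mk g)⁻¹ = 1
          rw [hcg, mul_inv_cancel]
        obtain ⟨ζ, hζ, hζz⟩ := center_smul hF (by omega) hz
        have e1 : ∀ v, mat g *ᵥ (mat c *ᵥ v) = ζ • (mat c *ᵥ (mat g *ᵥ v)) := by
          intro v
          rw [Matrix.mulVec_mulVec, Matrix.mulVec_mulVec, ← mat_mul, ← mat_mul, ← hζz, Matrix.mulVec_mulVec, ← mat_mul,
            inv_mul_cancel_right]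
        have e3 := scalar_eq_one D hN hA2 hζ e1
        apply mat_injective
        apply Matrix.toLin'.injective
        apply LinearMap.ext
        intro v
        rw [toLin'_apply, toLin'_apply, mat_mul, mat_mul, ← Matrix.mulVec_mulVec, ← Matrix.mulVec_mulVec, e1, e3,
          one_smul]
      · intro hcg
        show (QuotientGroup.mk (c * g) : PSU (N + 1) F q) = QuotientGroup.mk (g * c)
        rw [hcg]
    have hidx := Subgroup.index_comap_of_surjective
      (Subgroup.centralizer ({(QuotientGroup.mk g : PSU (N + 1) F q)} : Set (PSU (N + 1) F q)))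
      (QuotientGroup.mk'_surjective (Subgroup.center (SU (N + 1) F q)))
    rw [hcomap] at hidx
    have e1 := (Subgroup.centralizer ({g} : Set (SU (N + 1) F q))).card_mul_index
    have e2 := (Subgroup.centralizer ({(QuotientGroup.mk g : PSU (N + 1) F q)} : Set (PSU (N + 1) F q))).card_mul_index
    have e3 := Subgroup.card_eq_card_quotient_mul_card_subgroup (Subgroup.center (SU (N + 1) F q))
    have e4 : Nat.card (SU (N + 1) F q ⧸ Subgroup.center (SU (N + 1) F q)) = Nat.card (PSU (N + 1) F q) := rfl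
    rw [Cfsg.Agent.S0279.result hF (N + 1) (by omega), e4, ← e1, ← e2, ← hidx] at e3
    have h0 : 0 < (Subgroup.centralizer ({g} : Set (SU (N + 1) F q))).index :=
      Nat.pos_of_ne_zero Subgroup.index_ne_zero_of_finite
    apply Nat.eq_of_mul_eq_mul_right h0
    rw [e3]
    ring

end Cfsg.Agent.H446.CS
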