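import Cfsg.Agent.H446.CS.Psu
import Cfsg.Agent.S0280
import Cfsg.Agent.H431.CS.Defs

/-!
# S3677: the lattice of `PSU_n(q)` for a prime `r` with `ord_r(-q) = n - 1` (helper446)
-/

set_option autoImplicit false

namespace Cfsg.Agent.H446.CS

open Matrix Module Cfsg Cfsg.Agent.H431.CS Cfsg.Agent.H364 Cfsg.Agent.H370.AAM

universe v

/-- `|q ^ i - (-1) ^ i|` -/
def au (q i : ℕ) : ℕ := if Odd i then q ^ i + 1 else q ^ i - 1

theorem natAbs_au {q : ℕ} (hq : 1 ≤ q) (i : ℕ) : ((q : ℤ) ^ i - (-1) ^ i).natAbs = au q i := by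
  have h1 : (1 : ℤ) ≤ (q : ℤ) ^ i := one_le_pow₀ (by exact_mod_cast hq)
  have h2 : 1 ≤ q ^ i := Nat.one_le_pow _ _ hq
  unfold au
  split_ifs with h
  · rw [h.neg_one_pow]
    zify
    rw [abs_of_nonneg (by linarith)]
    ring
  · rw [(Nat.not_odd_iff_even.1 h).neg_one_pow]
    zify [h2]
    rw [abs_of_nonneg (by linarith)]

theorem dvd_au_iff {q r : ℕ} (hq : 1 ≤ q) (hr : r.Prime) (i : ℕ) : r ∣ au q i ↔ orderOf (-(q : ZMod r)) ∣ i := by
  have := Fact.mk hr
  rw [← natAbs_au hq, ← Int.natCast_dvd, orderOf_dvd_iff_pow_eq_one, ← ZMod.intCast_zmod_eq_zero_iff_dvd]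
  push_cast
  rw [sub_eq_zero, neg_pow (q : ZMod r) i]
  have h1 : ((-1 : ZMod r) ^ i) * (-1) ^ i = 1 := by rw [← mul_pow]; simp
  constructor
  · intro h
    rw [h, h1]
  · intro h
    calc (q : ZMod r) ^ i = ((-1) ^ i * (-1) ^ i) * (q : ZMod r) ^ i := by rw [h1, one_mul]
      _ = (-1) ^ i * ((-1) ^ i * (q : ZMod r) ^ i) := by ring
      _ = (-1) ^ i := by rw [h, mul_one]

theorem dvd_au {q : ℕ} (hq : 1 ≤ q) (i : ℕ) : q + 1 ∣ au q i := by
  rw [← natAbs_au hq, ← Int.natCast_dvd]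
  have h := sub_dvd_pow_sub_pow (q : ℤ) (-1) i
  push_cast
  simpa using h

theorem not_dvd_pow_add_one {p q j : ℕ} (hp : p.Prime) (hpq : p ∣ q) (hj : 0 < j) : ¬ p ∣ q ^ j + 1 := by
  intro h
  have h1 : p ∣ q ^ j := dvd_pow hpq (by omega)
  exact hp.one_lt.ne' (Nat.dvd_one.1 ((Nat.dvd_add_right h1).1 h))

theorem not_dvd_pow_sub_one' {p q j : ℕ} (hp : p.Prime) (hq : 1 ≤ q) (hpq : p ∣ q) (hj : 0 < j) : ¬ p ∣ q ^ j - 1 := by
  intro h
  have h1 : p ∣ q ^ j := dvd_pow hpq (by omega)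
  have h2 : 1 ≤ q ^ j := Nat.one_le_pow _ _ (by omega)
  have h3 : p ∣ 1 := by
    have := (Nat.dvd_sub h1 h)
    rwa [Nat.sub_sub_self h2] at this
  exact hp.one_lt.ne' (Nat.dvd_one.1 h3)

theorem not_dvd_au {p q j : ℕ} (hp : p.Prime) (hq : 1 ≤ q) (hpq : p ∣ q) (hj : 0 < j) : ¬ p ∣ au q j := by
  unfold au
  split_ifs
  · exact not_dvd_pow_add_one hp hpq hj
  · exact not_dvd_pow_sub_one' hp hq hpq hj

theorem fact_of' {p c d e X : ℕ} (hp : p.Prime) (hd : ¬ p ∣ d) (hX : ¬ p ∣ X) (h : c * d = p ^ e * X) :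
    c.factorization p = e := by
  have hX0 : X ≠ 0 := by rintro rfl; exact hX (dvd_zero p)
  have hd0 : d ≠ 0 := by rintro rfl; exact hd (dvd_zero p)
  have hc0 : c ≠ 0 := by
    rintro rfl
    rw [zero_mul] at h
    have := (mul_eq_zero.1 h.symm).resolve_left (pow_ne_zero _ hp.ne_zero)
    exact hX0 this
  have h1 : (c * d).factorization p = (p ^ e * X).factorization p := by rw [h]
  rw [Nat.factorization_mul hc0 hd0, Nat.factorization_mul (pow_ne_zero _ hp.ne_zero) hX0, hp.factorization_pow] at h1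
  simp only [Finsupp.add_apply, Finsupp.single_eq_same] at h1
  rw [Nat.factorization_eq_zero_of_not_dvd hd, Nat.factorization_eq_zero_of_not_dvd hX] at h1
  simpa using h1

/-- the order of `PSU_n(q)` -/
theorem card_psu' {F : Type v} [Field F] [Fintype F] {q : ℕ} (hF : Fintype.card F = q ^ 2) {n : ℕ} (hn : 3 ≤ n) :
    Nat.gcd n (q + 1) * Nat.card (PSU n F q) =
      q ^ (n * (n - 1) / 2) * ∏ i ∈ Finset.range (n - 1), au q (i + 2) := by
  have h := S0280.result hF n (by omega)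
  obtain ⟨m, rfl⟩ := Nat.exists_eq_add_of_le' hn
  rw [Finset.prod_range_succ', if_pos (by decide), zero_add, pow_one, mul_left_comm, ← mul_assoc (q ^ _),
    mul_comm _ (q + 1)] at h
  have h' := Nat.eq_of_mul_eq_mul_left (show 0 < q + 1 by omega) h
  rw [h']
  congr 1
  refine Finset.prod_congr rfl fun i _ => ?_
  unfold au
  rcases Nat.even_or_odd i with hi | hi
  · rw [if_neg (by rw [Nat.even_add_one, not_not]; exact hi), if_neg (by
      rw [Nat.not_odd_iff_even]; exact hi.add even_two)]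
  · rw [if_pos hi.add_one, if_pos (hi.add_even even_two)]

/-- the factor of `cc` prime to `p` -/
def ccp (q m k : ℕ) : ℕ :=
  ∏ i ∈ Finset.range m, (if Odd k then (if Even i then (q ^ k) ^ (i + 1) + 1 else (q ^ k) ^ (i + 1) - 1)
    else (q ^ k) ^ (i + 1) - 1)

theorem not_dvd_ccp {p q m k : ℕ} (hp : p.Prime) (hq : 1 ≤ q) (hpq : p ∣ q) (hk : 0 < k) : ¬ p ∣ ccp q m k := by
  unfold ccp
  rw [Prime.dvd_finsetProd_iff hp.prime]
  rintro ⟨i, -, hi⟩
  have h1 : p ∣ q ^ k := dvd_pow hpq (by omega)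
  have h2 : 1 ≤ q ^ k := Nat.one_le_pow _ _ hq
  revert hi
  split_ifs
  · exact not_dvd_pow_add_one hp h1 (by omega)
  · exact not_dvd_pow_sub_one' hp h2 h1 (by omega)
  · exact not_dvd_pow_sub_one' hp h2 h1 (by omega)

variable {F : Type v} [Field F] [Fintype F] {p f n r : ℕ}

/-- **L-PSU-sub.** -/
theorem lat_psu_sub (hp : p.Prime) (hf : 1 ≤ f) (hF : Fintype.card F = (p ^ f) ^ 2) (hn : 4 ≤ n) (hr : r.Prime)
    (ho : orderOf (-((p ^ f : ℕ) : ZMod r)) = n - 1) :
    Lat (PSU n F (p ^ f)) p r ((((p ^ f : ℕ) : ℤ) ^ (n - 1) - (-1) ^ (n - 1)).natAbs / Nat.gcd n (p ^ f + 1)) := by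
  have := Fact.mk hr
  have := Fact.mk hp
  set S := PSU n F (p ^ f) with hS
  have hfin : Finite S := Quotient.finite _
  set q := p ^ f with hq
  have hq1 : 1 < q := Nat.one_lt_pow (by omega) hp.one_lt
  have hpq : p ∣ q := dvd_pow_self p (by omega)
  rw [natAbs_au hq1.le]
  -- divisibility
  have hmem : ∀ d, r ∣ au q d ↔ n - 1 ∣ d := by
    intro d
    rw [dvd_au_iff hq1.le hr, ho]
  have hrq : ¬ r ∣ q := by
    intro h
    have h0 : ((q : ℕ) : ZMod r) = 0 := (ZMod.natCast_eq_zero_iff _ _).2 h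
    rw [h0, neg_zero, orderOf_eq_zero_iff'.2 (fun k hk => by rw [zero_pow (by omega)]; exact zero_ne_one)] at ho
    omega
  have hrF : (r : F) ≠ 0 := by
    intro h0
    obtain ⟨p', hchar⟩ := CharP.exists F
    have hp' : p'.Prime := (CharP.char_is_prime_or_zero F p').resolve_right (by
      rintro rfl
      have := CharP.charP_to_charZero F
      have := Nat.cast_eq_zero (R := F).1 h0
      exact hr.ne_zero this)
    have h1 : p' ∣ r := (CharP.cast_eq_zero_iff F p' r).1 h0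
    have h2 : p' = r := (Nat.prime_dvd_prime_iff_eq hp' hr).1 h1
    subst h2
    obtain ⟨e, -, he⟩ := FiniteField.card F p'
    apply hrq
    have h3 : p' ∣ q ^ 2 := by rw [← hF, he]; exact dvd_pow_self p' e.ne_zero
    exact hr.dvd_of_dvd_pow h3
  set d := Nat.gcd n (q + 1) with hd
  have hd0 : 0 < d := Nat.gcd_pos_of_pos_right _ (by omega)
  have hdq : d ∣ q + 1 := Nat.gcd_dvd_right _ _
  have hpd : ¬ p ∣ d := by
    intro h
    have := not_dvd_pow_add_one (j := 1) hp hpq one_pos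
    rw [pow_one] at this
    exact this (h.trans hdq)
  have hrd : ¬ r ∣ d := by
    intro h
    have h1 : r ∣ au q 1 := by
      have : au q 1 = q + 1 := by simp [au]
      rw [this]; exact h.trans hdq
    rw [hmem] at h1
    have := Nat.le_of_dvd one_pos h1
    omega
  have hdm : d ∣ au q (n - 1) := hdq.trans (dvd_au hq1.le _)
  set m0 := au q (n - 1) / d with hm0
  have hm0d : m0 * d = au q (n - 1) := Nat.div_mul_cancel hdm
  have hpm : ¬ p ∣ m0 := by
    intro h
    exact not_dvd_au (j := n - 1) hp hq1.le hpq (by omega) (hm0d ▸ Dvd.dvd.mul_right h d)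
  have hcS := card_psu' hF (n := n) (by omega)
  rw [← hd, ← hS] at hcS
  have hpprod : ¬ p ∣ ∏ i ∈ Finset.range (n - 1), au q (i + 2) := by
    rw [Prime.dvd_finsetProd_iff hp.prime]
    rintro ⟨i, -, hi⟩
    exact not_dvd_au hp hq1.le hpq (by omega) hi
  -- `p`-part of `|S|`
  have hpS : (Nat.card S).factorization p = f * (n * (n - 1) / 2) := by
    apply fact_of' hp hpd hpprod
    rw [mul_comm, hcS, hq, ← pow_mul]
  -- `r`-part of `|S|`
  have hrS' : d * Nat.card S = au q (n - 1) * (q ^ (n * (n - 1) / 2) *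
      ∏ i ∈ (Finset.range (n - 1)).erase (n - 3), au q (i + 2)) := by
    rw [hcS, ← Finset.mul_prod_erase (Finset.range (n - 1)) (fun i => au q (i + 2))
      (show n - 3 ∈ Finset.range (n - 1) by rw [Finset.mem_range]; omega)]
    have : n - 3 + 2 = n - 1 := by omega
    rw [this]
    ring
  have hrX : ¬ r ∣ q ^ (n * (n - 1) / 2) * ∏ i ∈ (Finset.range (n - 1)).erase (n - 3), au q (i + 2) := by
    rw [hr.dvd_mul, not_or]
    refine ⟨fun h => hrq (hr.dvd_of_dvd_pow h), ?_⟩
    rw [Prime.dvd_finsetProd_iff hr.prime]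
    rintro ⟨i, hi, hri⟩
    rw [Finset.mem_erase, Finset.mem_range] at hi
    rw [hmem] at hri
    obtain ⟨c, hc⟩ := hri
    have hc2 : c < 2 := by
      by_contra hcon
      have : (n - 1) * 2 ≤ (n - 1) * c := Nat.mul_le_mul_left _ (by omega)
      omega
    interval_cases c
    · omega
    · omega
  have hrS : r ∣ Nat.card S := by
    have h1 : r ∣ d * Nat.card S := by
      rw [hrS']
      exact Dvd.dvd.mul_right ((hmem _).2 dvd_rfl) _
    exact (hr.dvd_mul.1 h1).resolve_left hrd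
  have hfull : r ^ (Nat.card S).factorization r ∣ m0 := by
    have hm00 : m0 ≠ 0 := by
      intro h0
      rw [h0] at hpm
      exact hpm (dvd_zero p)
    rw [hr.pow_dvd_iff_le_factorization hm00]
    have hqn : au q (n - 1) ≠ 0 := by
      rw [← hm0d]
      exact mul_ne_zero hm00 hd0.ne'
    have e1 : (d * Nat.card S).factorization r = (Nat.card S).factorization r := by
      rw [Nat.factorization_mul hd0.ne' Nat.card_pos.ne']
      simp [Nat.factorization_eq_zero_of_not_dvd hrd]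
    have hX0 : q ^ (n * (n - 1) / 2) * ∏ i ∈ (Finset.range (n - 1)).erase (n - 3), au q (i + 2) ≠ 0 := by
      intro h0
      rw [h0] at hrX
      exact hrX (dvd_zero r)
    have e2 : (m0 * d).factorization r = m0.factorization r := by
      rw [Nat.factorization_mul hm00 hd0.ne']
      simp [Nat.factorization_eq_zero_of_not_dvd hrd]
    rw [← e1, ← e2, hrS', hm0d, Nat.factorization_mul hqn hX0]
    simp [Nat.factorization_eq_zero_of_not_dvd hrX]
  -- the list
  have hlist : ∀ x : S, x ≠ 1 → r ∣ Nat.card (Subgroup.centralizer ({x} : Set S)) →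
      ∃ k m : ℕ, k * m = n - 1 ∧ 0 < k ∧ 0 < m ∧ (orderOf x = r → m = 1) ∧
        Nat.card (Subgroup.centralizer ({x} : Set S)) * d =
          p ^ (f * k * (m * (m - 1) / 2)) * ccp q m k := by
    intro x hx hrx
    obtain ⟨k, m, hkm, hk, hm, hc⟩ : ∃ k m : ℕ, k * m = n - 1 ∧ 0 < k ∧ (orderOf x = r → m = 1) ∧
        Nat.card (Subgroup.centralizer ({x} : Set S)) * d = cc q m k := by
      obtain ⟨N, rfl⟩ : ∃ N, n = N + 1 := ⟨n - 1, by omega⟩
      rw [Nat.add_sub_cancel] at ho ⊢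
      exact exists_card hF hr hrF (by omega) ho hx hrx
    refine ⟨k, m, hkm, hk, ?_, hm, ?_⟩
    · rcases Nat.eq_zero_or_pos m with h | h
      · rw [h, mul_zero] at hkm; omega
      · exact h
    · rw [hc, cc, ccp, hq, ← pow_mul, ← pow_mul, mul_assoc f k]
  have hval : ∀ (c k m : ℕ), 0 < k → c * d = p ^ (f * k * (m * (m - 1) / 2)) * ccp q m k →
      c.factorization p = f * k * (m * (m - 1) / 2) := by
    intro c k m hk h
    exact fact_of' hp hpd (not_dvd_ccp hp hq1.le hpq hk) h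
  have hone : ∀ (c k m : ℕ), k * m = n - 1 → m = 1 → c * d = p ^ (f * k * (m * (m - 1) / 2)) * ccp q m k →
      c = m0 := by
    intro c k m hkm hm h
    subst hm
    rw [mul_one] at hkm
    apply Nat.eq_of_mul_eq_mul_right hd0
    rw [h, hm0d, hkm, ccp, au]
    simp
  have hne1 : ∀ x : S, Nat.card (Subgroup.centralizer ({x} : Set S)) ≠ Nat.card S → x ≠ 1 := by
    rintro x hc rfl
    apply hc
    have : Subgroup.centralizer ({1} : Set S) = ⊤ := by
      rw [eq_top_iff]
      intro y _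
      rw [Subgroup.mem_centralizer_singleton_iff]
      simp
    rw [this, Subgroup.card_top]
  -- elements of order `r`
  have hordr : ∀ y : S, orderOf y = r → Nat.card (Subgroup.centralizer ({y} : Set S)) = m0 := by
    intro y hy
    have hy1 : y ≠ 1 := by
      rintro rfl
      rw [orderOf_one] at hy
      exact hr.one_lt.ne hy
    obtain ⟨k, m, hkm, hk, hm, hm1, hc⟩ := hlist y hy1 (dvd_cent (Commute.refl y) hy.symm.dvd)
    exact hone _ k m hkm (hm1 hy) hc
  refine ⟨hrS, ?_, ?_, hfull, hpm, ?_, ?_, ?_⟩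
  · -- h0
    have hpS1 : p ∣ Nat.card S := by
      have h1 : p ∣ d * Nat.card S := by
        rw [hcS]
        apply Dvd.dvd.mul_right
        apply dvd_pow hpq
        have : 2 * 3 ≤ n * (n - 1) := by
          calc 2 * 3 = 3 * 2 := by norm_num
            _ ≤ n * (n - 1) := Nat.mul_le_mul (by omega) (by omega)
        omega
      exact (hp.dvd_mul.1 h1).resolve_left hpd
    obtain ⟨x, hx⟩ := exists_prime_orderOf_dvd_card' p hpS1
    refine ⟨_, mem_co x, ?_⟩
    intro hrx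
    obtain ⟨⟨y, hy⟩, hyr⟩ := exists_prime_orderOf_dvd_card' r hrx
    rw [Subgroup.orderOf_mk] at hyr
    apply hpm
    rw [← hordr y hyr]
    exact dvd_cent (mem_cent.1 hy).symm hx.symm.dvd
  · -- mem
    obtain ⟨y, hy⟩ := exists_prime_orderOf_dvd_card' r hrS
    exact ⟨y, hordr y hy⟩
  · -- one
    rintro _ ⟨x, rfl⟩ hcx hrx hpx
    dsimp only at hcx hrx hpx ⊢
    obtain ⟨k, m, hkm, hk, hm, -, hc⟩ := hlist x (hne1 x hcx) hrx
    have hv := hval _ k m hk hc
    rw [Nat.factorization_eq_zero_of_not_dvd hpx] at hv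
    apply hone _ k m hkm _ hc
    by_contra hm1
    have h2 : 2 * 1 ≤ m * (m - 1) := Nat.mul_le_mul (by omega) (by omega)
    have h3 : 0 < m * (m - 1) / 2 := by omega
    have h4 : 0 < f * k * (m * (m - 1) / 2) := by positivity
    omega
  · -- h3
    rintro _ ⟨x, rfl⟩ hcx hrx hpx
    dsimp only at hcx hrx hpx
    obtain ⟨k, m, hkm, hk, hm, -, hc⟩ := hlist x (hne1 x hcx) hrx
    have hv := hval _ k m hk hc
    rw [hp.pow_dvd_iff_le_factorization Nat.card_pos.ne', hv, hpS] at hpx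
    have h1 : k * (m * (m - 1) / 2) < n * (n - 1) / 2 := by
      have e1 : k * (m * (m - 1) / 2) * 2 = (n - 1) * (m - 1) := by
        rw [mul_assoc, Nat.div_mul_cancel (Nat.even_mul_pred_self m).two_dvd, ← mul_assoc, hkm]
      have e2 : n * (n - 1) / 2 * 2 = n * (n - 1) := Nat.div_mul_cancel (Nat.even_mul_pred_self n).two_dvd
      have hmn : m ≤ n - 1 := hkm ▸ Nat.le_mul_of_pos_left m hk
      have e3 : (n - 1) * (m - 1) < n * (n - 1) := by
        rw [mul_comm n]
        exact Nat.mul_lt_mul_of_pos_left (by omega) (by omega)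
      omega
    have h2 : f * k * (m * (m - 1) / 2) < f * (n * (n - 1) / 2) := by
      rw [mul_assoc]
      exact Nat.mul_lt_mul_of_pos_left h1 (by omega)
    omega
  · -- h4
    rintro _ ⟨x, rfl⟩ hcx hrx hpx
    dsimp only at hcx hrx hpx ⊢
    right
    rintro _ ⟨x', rfl⟩ hrx' hdvd hfac
    dsimp only at hrx' hdvd hfac ⊢
    have hcx' : Nat.card (Subgroup.centralizer ({x'} : Set S)) ≠ Nat.card S := by
      intro h
      apply hcx
      exact Nat.dvd_antisymm (Subgroup.card_subgroup_dvd_card _) (h ▸ hdvd)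
    obtain ⟨k, m, hkm, hk, hm, -, hc⟩ := hlist x (hne1 x hcx) hrx
    obtain ⟨k', m', hkm', hk', hm', -, hc'⟩ := hlist x' (hne1 x' hcx') hrx'
    rw [hval _ k m hk hc, hval _ k' m' hk' hc'] at hfac
    rw [mul_assoc, mul_assoc] at hfac
    have h1 := Nat.eq_of_mul_eq_mul_left (by omega : 0 < f) hfac
    have e1 : k * (m * (m - 1) / 2) * 2 = (n - 1) * (m - 1) := by
      rw [mul_assoc, Nat.div_mul_cancel (Nat.even_mul_pred_self m).two_dvd, ← mul_assoc, hkm]
    have e2 : k' * (m' * (m' - 1) / 2) * 2 = (n - 1) * (m' - 1) := by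
      rw [mul_assoc, Nat.div_mul_cancel (Nat.even_mul_pred_self m').two_dvd, ← mul_assoc, hkm']
    rw [h1, e1] at e2
    have h2 := Nat.eq_of_mul_eq_mul_left (by omega : 0 < n - 1) e2
    have h3 : m = m' := by omega
    subst h3
    have h4 : k = k' := Nat.eq_of_mul_eq_mul_right hm (hkm.trans hkm'.symm)
    subst h4
    exact Nat.eq_of_mul_eq_mul_right hd0 (hc'.trans hc.symm)

end Cfsg.Agent.H446.CS
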